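import Cfsg.Agent.H133.QS.D13Data
import Cfsg.Agent.H26.Ore.R13

/-!
# `Fi24'`: centralizer and normalizer of an element of order 13 (helper133)

`T13Concl.Facts G D l k u v x s`, `g x g⁻¹ = x ^ 7`: `|C(x)| = 468`, `|N(x)| = 5616`; in a subgroup `H` of index 2 with
`D ∩ H = ∅`: `|C_H(x)| = 234`, `|N_H(x) : C_H(x)| = 12`.
-/

set_option autoImplicit false
set_option linter.unusedSectionVars false
set_option maxRecDepth 10000

open Cfsg

namespace Cfsg.Agent.H133.QS.D13

open Subgroup
open Cfsg.Agent.H845.T13Concl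
open Cfsg.Agent.H26.Ore.R13

universe u

section

variable {G : Type u} [Group G] [Finite G] {D : Set G} {l k u v x s : G} (h : Facts G D l k u v x s)

theorem card_four {a b : G} (aa : a * a = 1) (bb : b * b = 1) (ab : a * b = b * a) (a1 : a ≠ 1) (b1 : b ≠ 1)
    (hne : a ≠ b) : Nat.card ↥(zpowers a ⊔ zpowers b) = 4 := by
  have hcomm : ∀ (p : zpowers a) (q : zpowers b), Commute ((zpowers a).subtype p) ((zpowers b).subtype q) := by
    rintro ⟨_, i, rfl⟩ ⟨_, j, rfl⟩
    exact ((show Commute a b from ab).zpow_left i).zpow_right j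
  have oa : orderOf a = 2 := orderOf_eq_prime (by rw [pow_two, aa]) a1
  have ob : orderOf b = 2 := orderOf_eq_prime (by rw [pow_two, bb]) b1
  have hz : ∀ {c : G}, c * c = 1 → ∀ i : ℤ, c ^ i = 1 ∨ c ^ i = c := by
    intro c hc i
    rcases Int.even_or_odd' i with ⟨j, rfl | rfl⟩
    · left; rw [zpow_mul, zpow_two, hc, one_zpow]
    · right; rw [zpow_add, zpow_mul, zpow_two, hc, one_zpow, one_mul, zpow_one]
  have hdis : Disjoint (zpowers a) (zpowers b) := by
    rw [disjoint_def]
    rintro y ⟨i, hi⟩ ⟨j, hj⟩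
    have hi' : a ^ i = y := hi
    have hj' : b ^ j = y := hj
    rcases hz aa i with e | e
    · rw [← hi', e]
    · rcases hz bb j with e' | e'
      · rw [← hj', e']
      · exact absurd (e.symm.trans (hi'.trans (hj'.symm.trans e'))) hne
  have hinj : Function.Injective (MonoidHom.noncommCoprod (zpowers a).subtype (zpowers b).subtype hcomm) := by
    rw [MonoidHom.noncommCoprod_injective]
    refine ⟨subtype_injective _, subtype_injective _, ?_⟩
    rw [range_subtype, range_subtype]
    exact hdis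
  have hr := MonoidHom.noncommCoprod_range (zpowers a).subtype (zpowers b).subtype hcomm
  rw [range_subtype, range_subtype] at hr
  have h1 := Nat.card_congr (MonoidHom.ofInjective hinj).toEquiv
  rw [hr, Nat.card_prod, Nat.card_zpowers, Nat.card_zpowers, oa, ob] at h1
  exact h1.symm

include h

theorem order_x : orderOf x = 13 := by
  have : Fact (Nat.Prime 13) := ⟨by norm_num⟩
  exact orderOf_eq_prime h.x13 h.x1

theorem ne_one_l : l ≠ 1 := fun e => h.lkn (by rw [e, one_mul, mul_one])
theorem ne_one_u : u ≠ 1 := fun e => h.uvn (by rw [e, one_mul, mul_one])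
theorem ne_lu : l ≠ u := fun e => h.lkn (by rw [e]; exact h.ku.symm)

theorem A_le_C : A l k u v ≤ centralizer ((zpowers x : Subgroup G) : Set G) := by
  refine le_trans ?_ (T_le_C h)
  rw [A, sup_le_iff, zpowers_le, zpowers_le]
  exact ⟨mul_mem (subset_closure (by simp)) (subset_closure (by simp)),
    mul_mem (subset_closure (by simp)) (subset_closure (by simp))⟩

theorem dvd_C : 468 ∣ Nat.card (centralizer ((zpowers x : Subgroup G) : Set G)) := by
  have h13 : 13 ∣ Nat.card (centralizer ((zpowers x : Subgroup G) : Set G)) := by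
    rw [← card_x h]
    refine card_dvd_of_le ?_
    rw [zpowers_le, mem_centralizer_iff]
    rintro y ⟨i, rfl⟩
    exact ((Commute.refl x).zpow_left i).eq
  have h9 : 9 ∣ Nat.card (centralizer ((zpowers x : Subgroup G) : Set G)) := by
    rw [← card_A h]
    exact card_dvd_of_le (A_le_C h)
  have h4 : 4 ∣ Nat.card (centralizer ((zpowers x : Subgroup G) : Set G)) := by
    rw [← card_four h.ll h.uu h.lu (ne_one_l h) (ne_one_u h) (ne_lu h)]
    refine card_dvd_of_le ?_
    rw [sup_le_iff, zpowers_le, zpowers_le]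
    exact ⟨T_le_C h (subset_closure (by simp)), T_le_C h (subset_closure (by simp))⟩
  exact Nat.Coprime.mul_dvd_of_dvd_of_dvd (by norm_num : Nat.Coprime 36 13)
    (Nat.Coprime.mul_dvd_of_dvd_of_dvd (by norm_num : Nat.Coprime 4 9) h4 h9) h13

/-- **The cardinalities.** -/
theorem cards {g : G} (hg : g * x * g⁻¹ = x ^ 7) :
    Nat.card (centralizer ((zpowers x : Subgroup G) : Set G)) = 468 ∧
      Nat.card (normalizer ((zpowers x : Subgroup G) : Set G)) = 5616 := by
  have he : orderOf ((7 : ℕ) : ZMod 13) = 12 := by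
    refine orderOf_eq_of_pow_and_pow_div_prime (by norm_num) (by decide) ?_
    intro q hq hd
    have h2 : q ∈ Nat.primeFactors 12 := Nat.mem_primeFactors.2 ⟨hq, hd, by norm_num⟩
    have h3 : Nat.primeFactors 12 = {2, 3} := by decide +kernel
    rw [h3] at h2
    simp only [Finset.mem_insert, Finset.mem_singleton] at h2
    rcases h2 with rfl | rfl <;> decide
  have : Fact (Nat.Prime 13) := ⟨by norm_num⟩
  have h1 := H843.Cyc.dvd_card (p := 13) (order_x h) hg he
  have h2 := H256.Sep.FiData.card13 h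
  have h3 : 12 * Nat.card (centralizer ((zpowers x : Subgroup G) : Set G)) ∣ 12 * 468 := h1.trans h2
  have h4 : Nat.card (centralizer ((zpowers x : Subgroup G) : Set G)) = 468 :=
    Nat.dvd_antisymm (Nat.dvd_of_mul_dvd_mul_left (by norm_num) h3) (dvd_C h)
  refine ⟨h4, ?_⟩
  rw [h4] at h1
  exact Nat.dvd_antisymm h2 h1

end

section

variable {G : Type u} [Group G] [Finite G] {D : Set G} {l k u v x s : G} (h : Facts G D l k u v x s)
  {H : Subgroup G} (hH : H.index = 2) (hodd : ∀ d ∈ D, d ∉ H)

include h hH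

theorem x_mem : x ∈ H := by
  have h1 : x = (x ^ 7) * (x ^ 7) := by
    rw [← pow_add, show 7 + 7 = 13 + 1 from rfl, pow_succ, h.x13, one_mul]
  rw [h1]
  exact (mul_mem_iff_of_index_two hH).2 Iff.rfl

theorem cent_eq : centralizer ((zpowers (⟨x, x_mem h hH⟩ : H) : Subgroup H) : Set H) =
    (centralizer ((zpowers x : Subgroup G) : Set G)).subgroupOf H := by
  rw [cen_sub, MonoidHom.map_zpowers]
  rfl

theorem norm_eq : normalizer ((zpowers (⟨x, x_mem h hH⟩ : H) : Subgroup H) : Set H) =
    (normalizer ((zpowers x : Subgroup G) : Set G)).subgroupOf H := by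
  rw [norm_sub, MonoidHom.map_zpowers]
  rfl

theorem order' : orderOf (⟨x, x_mem h hH⟩ : H) = 13 := by
  rw [← orderOf_coe]
  exact order_x h

include hodd

theorem card_C {g : G} (hg : g * x * g⁻¹ = x ^ 7) :
    Nat.card (centralizer ((zpowers (⟨x, x_mem h hH⟩ : H) : Subgroup H) : Set H)) = 234 := by
  have h1 := card_sub hH (T_le_C h (subset_closure (by simp) : l ∈ closure ({l, u, v, k} : Set G))) (hodd l h.hl)
  rw [(cards h hg).1, ← cent_eq h hH] at h1
  omega

theorem card_N {g : G} (hg : g * x * g⁻¹ = x ^ 7) :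
    Nat.card (normalizer ((zpowers (⟨x, x_mem h hH⟩ : H) : Subgroup H) : Set H)) = 2808 := by
  have h1 := card_sub hH (centralizer_le_normalizer _
    (T_le_C h (subset_closure (by simp) : l ∈ closure ({l, u, v, k} : Set G)))) (hodd l h.hl)
  rw [(cards h hg).2, ← norm_eq h hH] at h1
  omega

theorem relIndex_eq {g : G} (hg : g * x * g⁻¹ = x ^ 7) :
    (centralizer ((zpowers (⟨x, x_mem h hH⟩ : H) : Subgroup H) : Set H)).relIndex
      (normalizer ((zpowers (⟨x, x_mem h hH⟩ : H) : Subgroup H) : Set H)) = 12 := by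
  have h1 := card_mul_relIndex (centralizer_le_normalizer
    ((zpowers (⟨x, x_mem h hH⟩ : H) : Subgroup H) : Set H))
  rw [card_C h hH hodd hg, card_N h hH hodd hg] at h1
  omega

end

/-- the element of the normalizer in `Fi24` -/
theorem conj7 : Fischer.Fi24Rep.word D13Data.gw * H845.T13.x * (Fischer.Fi24Rep.word D13Data.gw)⁻¹ = H845.T13.x ^ 7 := by
  have h := H845.T13.of_E D13Data.chk
  simp only [Fischer.Fi24Spider.word_append, KFacts.FiTF.Pts.word_reverse] at h
  rw [mul_assoc]
  refine h.trans ?_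
  show _ = (Fischer.Fi24Rep.word H845.T13Data.wx) ^ 7
  simp only [pow_succ, pow_zero, one_mul, mul_assoc]

end Cfsg.Agent.H133.QS.D13
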