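import Cfsg.Agent.H845.T13Data

/-!
# A word of `Fi24` conjugating the element `x` of order 13 to `x ^ 7` (helper133, data and kernel check)
-/

set_option autoImplicit false
set_option maxRecDepth 100000
set_option Elab.async false

namespace Cfsg.Agent.H133.QS.D13Data

open Cfsg.Agent.H845.T13Data
open Cfsg.Spor.Fi24 (Gen)

def gw : List Gen := [.b, .i, .a, .b, .c, .d, .h, .f, .e, .d, .c, .b, .a, .d, .h, .i, .f, .d, .e, .c, .d, .h, .d, .e, .f, .g, .j, .c, .d, .e, .f, .g, .d, .e, .c, .d, .h, .i, .d, .h, .c, .d, .e, .b, .c, .d, .h, .f, .e, .d, .c, .b, .k, .a, .l, .k, .c, .b, .a, .i, .f, .e, .c, .d, .h, .d, .e, .f, .g, .j, .c, .d, .e, .f, .g, .h, .e, .f, .d, .e, .c, .d, .h, .f, .e, .d, .c, .b, .a, .f, .e, .d, .h, .c, .d, .e, .f, .g, .j, .g, .h, .i]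

theorem chk : E (gw ++ (wx ++ gw.reverse)) (wx ++ (wx ++ (wx ++ (wx ++ (wx ++ (wx ++ wx)))))) = true := by
  decide +kernel

end Cfsg.Agent.H133.QS.D13Data
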