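import Cfsg.Agent.H113.QS.LiftZ

/-!
# Local subgroups in a central extension with kernel of order prime to `p` (helper133)

`π : L →* K` onto, `ker π` central of order prime to `p`, `|K|_p = p`, `x₀ ∈ K` of order `p`.
* `exists_sylow` : a Sylow subgroup `P = ⟨x⟩` over `⟨x₀⟩`, `C(P)`, `N(P)` are the preimages;
* `lift4` : the lift of an elementary abelian 2-subgroup (`|ker π|` odd).
-/

set_option autoImplicit false
set_option linter.unusedSectionVars false

namespace Cfsg.Agent.H133.QS

open Subgroup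
open Cfsg.Agent.H113.QS (exists_lift card_eq_mul eq_one_of_ker)

universe u v

variable {L : Type u} [Group L] [Finite L] {K : Type v} [Group K] [Finite K] {π : L →* K}

theorem conj_aux (hc : π.ker ≤ center L) {p : ℕ} (hp : p.Prime) (hZ : ¬ p ∣ Nat.card π.ker) {a b : L}
    (ha : a ^ p = 1) (hb : b ^ p = 1) (h : π a = π b) : a = b := by
  have h1 : b⁻¹ * a ∈ π.ker := by rw [MonoidHom.mem_ker, map_mul, map_inv, h, inv_mul_cancel]
  have h2 : (b⁻¹ * a) ^ p = 1 := by
    have h3 : Commute b (b⁻¹ * a) := mem_center_iff.1 (hc h1) b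
    have h4 : a = b * (b⁻¹ * a) := by group
    rw [h4, h3.mul_pow, hb, one_mul] at ha
    exact ha
  have h3 := eq_one_of_ker hp hZ h1 h2
  calc a = b * (b⁻¹ * a) := by group
    _ = b := by rw [h3, mul_one]

/-- **The Sylow subgroup over `⟨x₀⟩`.** -/
theorem exists_sylow (hs : Function.Surjective π) (hc : π.ker ≤ center L) {p : ℕ} (hp : p.Prime)
    (hZ : ¬ p ∣ Nat.card π.ker) (h2 : ¬ p ^ 2 ∣ Nat.card K) {x₀ : K} (hx₀ : orderOf x₀ = p) :
    ∃ (x : L) (P : Sylow p L), orderOf x = p ∧ π x = x₀ ∧ (P : Subgroup L) = zpowers x ∧ Nat.card P = p ∧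
      centralizer ((P : Subgroup L) : Set L) = (centralizer ((zpowers x₀ : Subgroup K) : Set K)).comap π ∧
      normalizer ((P : Subgroup L) : Set L) = (normalizer ((zpowers x₀ : Subgroup K) : Set K)).comap π := by
  obtain ⟨x, hx, hπ⟩ := exists_lift hs hp hZ hx₀
  have hcL : ¬ p ^ 2 ∣ Nat.card L := by
    intro h
    rw [card_eq_mul hs] at h
    exact h2 ((Nat.Coprime.pow_left 2 ((hp.coprime_iff_not_dvd).2 hZ)).dvd_of_dvd_mul_left h)
  have hpL : p ∣ Nat.card L := by rw [← hx]; exact orderOf_dvd_natCard x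
  have hpg : IsPGroup p (zpowers x) := IsPGroup.of_card (n := 1) (by rw [Nat.card_zpowers, hx, pow_one])
  have : Fact p.Prime := ⟨hp⟩
  obtain ⟨P, hxP⟩ := hpg.exists_le_sylow
  have hP : Nat.card (P : Subgroup L) = p := SmallSimple.PrimeLocal.card_of_not_sq_dvd hpL hcL P
  have hPx : (P : Subgroup L) = zpowers x := by
    symm
    apply Subgroup.eq_of_le_of_card_ge hxP
    rw [Nat.card_zpowers, hx]
    exact hP.le
  have hxp : x ^ p = 1 := by rw [← hx, pow_orderOf_eq_one]
  refine ⟨x, P, hx, hπ, hPx, hP, ?_, ?_⟩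
  · ext y
    rw [hPx, mem_comap, mem_centralizer_iff, mem_centralizer_iff]
    constructor
    · rintro h k ⟨i, rfl⟩
      have := h x (mem_zpowers x)
      show x₀ ^ i * π y = π y * x₀ ^ i
      have h1 : Commute x₀ (π y) := by
        rw [← hπ]
        show π x * π y = π y * π x
        rw [← map_mul, this, map_mul]
      exact (h1.zpow_left i).eq
    · rintro h k ⟨i, rfl⟩
      have h1 := h x₀ (mem_zpowers x₀)
      have h3 : y * x * y⁻¹ = x := by
        apply conj_aux hc hp hZ (by rw [conj_pow, hxp, mul_one, mul_inv_cancel]) hxp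
        rw [map_mul, map_mul, map_inv, hπ, ← h1, mul_inv_cancel_right]
      have h4 : Commute x y := by
        show x * y = y * x
        calc x * y = (y * x * y⁻¹) * y := by rw [h3]
          _ = y * x := by group
      exact (h4.zpow_left i).eq
  · ext y
    rw [hPx, mem_comap]
    constructor
    · intro h
      apply Subgroup.mem_normalizer_fintype
      rintro k ⟨i, rfl⟩
      have h1 := (mem_normalizer_iff.1 h (x ^ i)).1 (zpow_mem (mem_zpowers x) i)
      have h3 : π y * x₀ ^ i * (π y)⁻¹ = π (y * x ^ i * y⁻¹) := by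
        rw [map_mul, map_mul, map_inv, map_zpow, hπ]
      show π y * x₀ ^ i * (π y)⁻¹ ∈ zpowers x₀
      rw [h3]
      obtain ⟨j, hj⟩ := mem_zpowers_iff.1 h1
      rw [← hj, map_zpow, hπ]
      exact zpow_mem (mem_zpowers x₀) j
    · intro h
      apply Subgroup.mem_normalizer_fintype
      rintro k ⟨i, rfl⟩
      have h1 := (mem_normalizer_iff.1 h x₀).1 (mem_zpowers x₀)
      obtain ⟨j, hj⟩ := mem_zpowers_iff.1 h1
      have h3 : y * x * y⁻¹ = x ^ j := by
        apply conj_aux hc hp hZ (by rw [conj_pow, hxp, mul_one, mul_inv_cancel])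
          (by rw [← zpow_natCast, ← zpow_mul, mul_comm, zpow_mul, zpow_natCast, hxp, one_zpow])
        rw [map_mul, map_mul, map_inv, map_zpow, hπ, hj]
      show y * x ^ i * y⁻¹ ∈ zpowers x
      rw [← conj_zpow, h3]
      exact zpow_mem (zpow_mem (mem_zpowers x) j) i

theorem card_comap' (hs : Function.Surjective π) (C : Subgroup K) :
    Nat.card (C.comap π) = Nat.card π.ker * Nat.card C := by
  have h1 := Subgroup.card_mul_index (C.comap π)
  have h2 := Subgroup.card_mul_index C
  rw [Subgroup.index_comap_of_surjective C hs, card_eq_mul hs, ← h2] at h1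
  have h3 : 0 < C.index := Nat.pos_of_ne_zero C.index_ne_zero_of_finite
  apply Nat.eq_of_mul_eq_mul_right h3
  rw [h1]; ring

theorem relIndex_comap' (hs : Function.Surjective π) (C N : Subgroup K) :
    (C.comap π).relIndex (N.comap π) = C.relIndex N := by
  rw [Subgroup.relIndex_comap, Subgroup.map_comap_eq_self_of_surjective hs]

/-- the involutions of the preimage of an elementary abelian 2-subgroup -/
def lift2 (π : L →* K) (hc : π.ker ≤ center L) (ho : Odd (Nat.card π.ker)) (A : Subgroup K)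
    (hA : ∀ a ∈ A, a * a = 1) : Subgroup L where
  carrier := {b | π b ∈ A ∧ b * b = 1}
  one_mem' := ⟨by rw [map_one]; exact one_mem A, one_mul 1⟩
  mul_mem' := by
    rintro a b ⟨ha, haa⟩ ⟨hb, hbb⟩
    refine ⟨by rw [map_mul]; exact mul_mem ha hb, ?_⟩
    have hk : a * b * (a * b) ∈ π.ker := by
      rw [MonoidHom.mem_ker, map_mul, map_mul]
      exact hA _ (mul_mem ha hb)
    have h1 := mem_center_iff.1 (hc hk) a
    have h2 : a * b * (a * b) * (a * b * (a * b)) = 1 := by
      calc a * b * (a * b) * (a * b * (a * b)) = a * (b * a * b * (a * b * (a * b))) := by group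
        _ = a * (b * a * b * (a * b * (a * b))) * (a * a) := by rw [haa, mul_one]
        _ = a * (b * a * b * (a * b * (a * b) * a)) * a := by group
        _ = a * (b * a * b * (a * (a * b * (a * b)))) * a := by rw [h1]
        _ = a * b * a * b * (a * a) * b * a * b * a := by group
        _ = a * b * a * (b * b) * a * b * a := by rw [haa]; group
        _ = a * b * (a * a) * b * a := by rw [hbb]; group
        _ = a * (b * b) * a := by rw [haa]; group
        _ = 1 := by rw [hbb, mul_one, haa]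
    exact eq_one_of_ker (p := 2) Nat.prime_two (fun h => by
      rw [← Nat.not_even_iff_odd] at ho
      exact ho (even_iff_two_dvd.2 h)) hk (by rw [pow_two]; exact h2)
  inv_mem' := by
    rintro a ⟨ha, haa⟩
    have : a⁻¹ = a := inv_eq_of_mul_eq_one_right haa
    show π a⁻¹ ∈ A ∧ a⁻¹ * a⁻¹ = 1
    rw [this]
    exact ⟨ha, haa⟩

variable (hc : π.ker ≤ center L) (ho : Odd (Nat.card π.ker)) {A : Subgroup K} (hA : ∀ a ∈ A, a * a = 1)

theorem mem_lift2 {b : L} : b ∈ lift2 π hc ho A hA ↔ π b ∈ A ∧ b * b = 1 := Iff.rfl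

include hc ho in
theorem eq_of_sq {a b : L} (haa : a * a = 1) (hbb : b * b = 1) (h : π a = π b) : a = b :=
  conj_aux hc (p := 2) Nat.prime_two (fun h => by
    have h2 := ho
    rw [← Nat.not_even_iff_odd] at h2
    exact h2 (even_iff_two_dvd.2 h)) (by rw [pow_two]; exact haa) (by rw [pow_two]; exact hbb) h

include hc ho in
/-- the lift of an involution -/
theorem exists_sq (hs : Function.Surjective π) {a : K} (ha : a * a = 1) : ∃ b : L, b * b = 1 ∧ π b = a := by
  obtain ⟨b, rfl⟩ := hs a
  obtain ⟨k, hk⟩ := ho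
  refine ⟨b ^ Nat.card π.ker, ?_, ?_⟩
  · have h1 : b * b ∈ π.ker := by rw [MonoidHom.mem_ker, map_mul, ha]
    have h2 : (⟨b * b, h1⟩ : π.ker) ^ Nat.card π.ker = 1 := pow_card_eq_one'
    have h3 : (b * b) ^ Nat.card π.ker = 1 := congrArg Subtype.val h2
    rw [← pow_add, ← two_mul, pow_mul, pow_two, h3]
  · rw [map_pow, hk, pow_succ, pow_mul, pow_two, ha, one_pow, one_mul]

theorem card_lift2 (hs : Function.Surjective π) : Nat.card (lift2 π hc ho A hA) = Nat.card A := by
  refine Nat.card_congr (Equiv.ofBijective (fun b => (⟨π b, b.2.1⟩ : A)) ⟨?_, ?_⟩)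
  · intro a b h
    exact Subtype.ext (eq_of_sq hc ho a.2.2 b.2.2 (congrArg Subtype.val h))
  · rintro ⟨a, ha⟩
    obtain ⟨b, hb, hπ⟩ := exists_sq hc ho hs (hA a ha)
    exact ⟨⟨b, by rw [mem_lift2]; exact ⟨by rw [hπ]; exact ha, hb⟩⟩, Subtype.ext hπ⟩

end Cfsg.Agent.H133.QS
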