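import Cfsg.Agent.H133.QS.Rel
import Cfsg.Agent.H133.QS.Lift
import Cfsg.Agent.H843.Ore.R11

/-!
# Residues modulo 11 of the degrees of the characters of the triple cover of `Fi24'` (helper133)
-/

set_option autoImplicit false
set_option linter.constructorNameAsVariable false

namespace Cfsg.Agent.H133.QS.R11

open Cfsg Subgroup
open Cfsg.Agent.Fischer Cfsg.Agent.Fischer.Fi24RepDef Cfsg.Agent.Fischer.Fi24Rep
open Cfsg.Agent.R08.FiTwentyFour (L finite_Fi24 mem_commutator_iff sgn_L)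
open Cfsg.Agent.KFacts.FiTF.Pts
open Cfsg.Agent.H843 Cfsg.Agent.H843.D11 Cfsg.Agent.H843.Ore.R11
open Cfsg.Agent.SmallSimple.ThetaSetup
open Cfsg.Spor (Fi24)

universe u

theorem A_cent {a : Spor.Fi24'} (ha : a ∈ A) : a ∈ centralizer ((zpowers x : Subgroup Spor.Fi24') : Set Spor.Fi24') := by
  rw [cent_eq, mem_subgroupOf]
  have h1 : closure ({Fi24Rep.gen .i, word d2w, word d3w} : Set Fi24) ≤
      centralizer ((zpowers D.x : Subgroup Fi24) : Set Fi24) := by
    rw [closure_le, ← inter]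
    exact fun y hy => hy.2
  exact h1 (mem_subgroupOf.1 ha)

theorem A_sq {a : Spor.Fi24'} (ha : a ∈ A) : a * a = 1 := by
  by_cases h1 : a = 1
  · rw [h1, mul_one]
  have hcon : ∀ {g y w : Spor.Fi24'}, g * y * g⁻¹ = w → w * w = 1 → y * y = 1 := by
    rintro g y w rfl h
    have h2 : y * y = g⁻¹ * (g * y * g⁻¹ * (g * y * g⁻¹)) * g := by group
    rw [h2, h]; group
  rcases cases_A ha h1 with rfl | rfl | rfl
  · exact z_sq
  · exact hcon cz2 (hcon cz3 z_sq)
  · exact hcon cz3 z_sq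

theorem A_norm : ∀ g ∈ normalizer ((zpowers x : Subgroup Spor.Fi24') : Set Spor.Fi24'), ∀ a ∈ A, g * a * g⁻¹ ∈ A := by
  intro g hg a ha
  rw [norm_eq, mem_subgroupOf] at hg
  rw [A, mem_subgroupOf] at ha ⊢
  have h1 : ∀ y ∈ closure ({Fi24Rep.gen .i, word d2w, word d3w} : Set Fi24),
      (g : Fi24) * y * (g : Fi24)⁻¹ ∈ closure ({Fi24Rep.gen .i, word d2w, word d3w} : Set Fi24) := by
    intro y hy
    induction hy using closure_induction with
    | mem y hy =>
      apply Subgroup.subset_closure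
      rw [← inter] at hy ⊢
      refine ⟨Cfsg.Agent.R08.FiTwentyFour.conj hy.1 _, ?_⟩
      have h2 : (g : Fi24)⁻¹ ∈ normalizer ((zpowers D.x : Subgroup Fi24) : Set Fi24) := inv_mem hg
      have h3 := hy.2
      rw [SetLike.mem_coe, mem_centralizer_iff] at h3 ⊢
      intro w hw
      have h4 := h3 ((g : Fi24)⁻¹ * w * (g : Fi24)) (by
        have h5 := (mem_normalizer_iff.1 h2 w).1 hw
        rwa [inv_inv] at h5)
      calc w * ((g : Fi24) * y * (g : Fi24)⁻¹)
          = (g : Fi24) * (((g : Fi24)⁻¹ * w * (g : Fi24)) * y) * (g : Fi24)⁻¹ := by group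
        _ = (g : Fi24) * (y * ((g : Fi24)⁻¹ * w * (g : Fi24))) * (g : Fi24)⁻¹ := by rw [h4]
        _ = _ := by group
    | one => rw [mul_one, mul_inv_cancel]; exact one_mem _
    | mul y w _ _ h1 h2 =>
      have h3 : (g : Fi24) * (y * w) * (g : Fi24)⁻¹ =
          (g : Fi24) * y * (g : Fi24)⁻¹ * ((g : Fi24) * w * (g : Fi24)⁻¹) := by group
      rw [h3]; exact mul_mem h1 h2
    | inv y _ h1 =>
      have h3 : (g : Fi24) * y⁻¹ * (g : Fi24)⁻¹ = ((g : Fi24) * y * (g : Fi24)⁻¹)⁻¹ := by group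
      rw [h3]; exact inv_mem h1
  exact h1 _ ha

theorem A_conj : ∀ a ∈ A, a ≠ 1 → ∃ k : Spor.Fi24',
    k ∈ centralizer ((zpowers x : Subgroup Spor.Fi24') : Set Spor.Fi24') ∧ k ^ 3 = 1 ∧ k * a * k⁻¹ = z := by
  intro a ha h1
  have hcc : c ∈ centralizer ((zpowers x : Subgroup Spor.Fi24') : Set Spor.Fi24') :=
    Cyc.mem_centralizer_zpowers.2 (Subtype.ext comm_c.eq)
  have hc3 : c ^ 3 = 1 := by rw [← order_c, pow_orderOf_eq_one]
  rcases cases_A ha h1 with rfl | rfl | rfl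
  · exact ⟨1, one_mem _, one_pow 3, by group⟩
  · refine ⟨c * c, mul_mem hcc hcc, ?_, ?_⟩
    · rw [← pow_two, ← pow_mul, mul_comm, pow_mul, hc3, one_pow]
    · calc c * c * z2 * (c * c)⁻¹ = c * (c * z2 * c⁻¹) * c⁻¹ := by group
        _ = z := by rw [cz2, cz3]
  · exact ⟨c, hcc, hc3, cz3⟩

/-- **Residues modulo 11 in the triple cover.** -/
theorem r11 {G : Type u} [Group G] [Finite G] {π : G →* Spor.Fi24'} (hs : Function.Surjective π)
    (hc : π.ker ≤ center G) (h3 : Nat.card π.ker = 3) (χ : IrrCharacter G) {n : ℤ} (hn : (χ : G → ℂ) 1 = n) :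
    n % 11 = 0 ∨ n % 11 = 1 ∨ n % 11 = 2 ∨ n % 11 = 3 ∨ n % 11 = 8 ∨ n % 11 = 9 ∨ n % 11 = 10 := by
  have hfin := finite_Fi24
  have hF : Fact (Nat.Prime 11) := ⟨by norm_num⟩
  have ho : Odd (Nat.card π.ker) := by rw [h3]; decide
  obtain ⟨x', P, hx', hπx, hPx, hcP, hCP, hNP⟩ := exists_sylow hs hc hF.out (by rw [h3]; norm_num) not_sq order_x
  obtain ⟨K, hK⟩ := exists_isComp P hcP
  have hC : Nat.card (centralizer ((P : Subgroup G) : Set G)) = 3 * 132 := by
    rw [hCP, card_comap' hs, h3, card_cent']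
  have he : (centralizer ((P : Subgroup G) : Set G)).relIndex (normalizer ((P : Subgroup G) : Set G)) = 10 := by
    rw [hCP, hNP, relIndex_comap' hs]
    have h2 := Subgroup.card_mul_index ((centralizer ((zpowers x : Subgroup Spor.Fi24') : Set Spor.Fi24')).subgroupOf
      (normalizer ((zpowers x : Subgroup Spor.Fi24') : Set Spor.Fi24')))
    rw [Nat.card_congr (Subgroup.subgroupOfEquivOfLe (centralizer_le_normalizer _)).toEquiv, card_cent', card_norm'] at h2
    have h3 : 132 * (centralizer ((zpowers x : Subgroup Spor.Fi24') : Set Spor.Fi24')).relIndex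
      (normalizer ((zpowers x : Subgroup Spor.Fi24') : Set Spor.Fi24')) = 1320 := h2
    omega
  have hKc : Nat.card K = 36 := by
    have h1 := (Nat.card_congr (prodEquiv hK hcP).toEquiv).trans hC
    rw [Nat.card_prod] at h1
    have h2 : Nat.card (P : Subgroup G) = 11 := hcP
    rw [h2] at h1
    omega
  have memK : ∀ {y : G} {k : ℕ}, π y ∈ centralizer ((zpowers x : Subgroup Spor.Fi24') : Set Spor.Fi24') →
      orderOf y ∣ k → ¬ 11 ∣ k → y ∈ K := by
    intro y k h1 h2 h3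
    rw [hK]
    refine ⟨?_, fun h => h3 (h.trans h2)⟩
    rw [hCP]
    exact h1
  obtain ⟨z', hz', hπz⟩ := exists_sq hc ho hs z_sq
  refine rel11Z hK hcP he hKc (Z := π.ker) hc h3 ?_ (A := lift2 π hc ho A (fun a ha => A_sq ha)) ?_ ?_ ?_
    (z := z') ?_ hz' ?_ χ hn
  · intro y hy
    refine memK (k := 3) ?_ ?_ (by norm_num)
    · rw [MonoidHom.mem_ker.1 hy]; exact one_mem _
    · rw [← h3]; exact Subgroup.orderOf_dvd_natCard _ hy
  · intro y hy
    refine memK (k := 2) (A_cent hy.1) (orderOf_dvd_of_pow_eq_one (by rw [pow_two]; exact hy.2)) (by norm_num)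
  · rw [card_lift2 hc ho _ hs, card_A]
  · intro g hg y hy
    rw [hNP] at hg
    refine ⟨?_, ?_⟩
    · rw [map_mul, map_mul, map_inv]
      exact A_norm _ hg _ hy.1
    · calc g * y * g⁻¹ * (g * y * g⁻¹) = g * (y * y) * g⁻¹ := by group
        _ = 1 := by rw [hy.2, mul_one, mul_inv_cancel]
  · exact ⟨by rw [hπz]; exact z_memA, hz'⟩
  · intro a ha ha1
    have h1 : π a ≠ 1 := fun h => ha1 (eq_of_sq hc ho ha.2 (one_mul 1) (by rw [h, map_one]))
    obtain ⟨k₀, hk1, hk2, hk3⟩ := A_conj (π a) ha.1 h1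
    obtain ⟨k, rfl⟩ := hs k₀
    refine ⟨k, memK (k := 9) hk1 (orderOf_dvd_of_pow_eq_one ?_) (by norm_num), ?_⟩
    · have h4 : k ^ 3 ∈ π.ker := by rw [MonoidHom.mem_ker, map_pow, hk2]
      have h5 : (⟨k ^ 3, h4⟩ : π.ker) ^ Nat.card π.ker = 1 := pow_card_eq_one'
      have h6 : (k ^ 3) ^ Nat.card π.ker = 1 := congrArg Subtype.val h5
      rw [h3, ← pow_mul] at h6
      exact h6
    · refine eq_of_sq hc ho ?_ hz' (by rw [map_mul, map_mul, map_inv, hk3, hπz])
      calc k * a * k⁻¹ * (k * a * k⁻¹) = k * (a * a) * k⁻¹ := by group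
        _ = 1 := by rw [ha.2, mul_one, mul_inv_cancel]

end Cfsg.Agent.H133.QS.R11
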