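import Cfsg.Agent.H133.QS.RelC
import Cfsg.Agent.H133.QS.Lift
import Cfsg.Agent.H133.QS.D13
import Cfsg.Agent.H843.Ore.R11

/-!
# Residues modulo 13 of the degrees of the faithful characters of the triple cover of `Fi24'` (helper133)
-/

set_option autoImplicit false
set_option linter.unusedSectionVars false
set_option maxRecDepth 100000

open Cfsg

namespace Cfsg.Agent.H133.QS.R13

open Subgroup
open Cfsg.Agent.H845.T13Concl
open Cfsg.Agent.H26.Ore.R13
open Cfsg.Agent.SmallSimple.ThetaSetup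
open Cfsg.Spor (Fi24)

universe u w

section

variable {G : Type u} [Group G] [Finite G] {D : Set G} {l k u v x s : G} (h : Facts G D l k u v x s)

include h in
theorem A_comm {a b : G} (ha : a ∈ A l k u v) (hb : b ∈ A l k u v) : a * b = b * a := by
  obtain ⟨p, ⟨i, rfl⟩, q, ⟨j, rfl⟩, rfl⟩ := exists_of_mem h ha
  obtain ⟨p', ⟨i', rfl⟩, q', ⟨j', rfl⟩, rfl⟩ := exists_of_mem h hb
  have c := commlk h
  have e1 : Commute ((l * k) ^ i * (u * v) ^ j) ((l * k) ^ i') :=
    ((Commute.refl (l * k)).zpow_zpow i i').mul_left (c.symm.zpow_zpow j i')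
  have e2 : Commute ((l * k) ^ i * (u * v) ^ j) ((u * v) ^ j') :=
    (c.zpow_zpow i j').mul_left ((Commute.refl (u * v)).zpow_zpow j j')
  exact (e1.mul_right e2).eq

variable {H : Subgroup G} (hH : H.index = 2) (hodd : ∀ d ∈ D, d ∉ H)

include h hH hodd in
theorem A_le : A l k u v ≤ H := by
  have hmul : ∀ {a c : G}, a ∈ D → c ∈ D → a * c ∈ H := fun {a c} ha hc =>
    (mul_mem_iff_of_index_two hH).2 ⟨fun h1 => absurd h1 (hodd a ha), fun h1 => absurd h1 (hodd c hc)⟩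
  rw [A, sup_le_iff, zpowers_le, zpowers_le]
  exact ⟨hmul h.hl h.hk, hmul h.hu h.hv⟩

include h hH hodd in
/-- **Residues modulo 13 in a triple cover.** -/
theorem main {g : G} (hg : g * x * g⁻¹ = x ^ 7) {Y : Type w} [Group Y] [Finite Y] {π : Y →* H}
    (hs : Function.Surjective π) (hc : π.ker ≤ center Y) (h3 : Nat.card π.ker = 3)
    (hT : ∃ a b : Y, (π a : G) = l * k ∧ (π b : G) = u * v ∧ a * b ≠ b * a) (χ : IrrCharacter Y)
    (hχ : ∃ ζ ∈ π.ker, (χ : Y → ℂ) ζ ≠ (χ : Y → ℂ) 1) {n : ℤ} (hn : (χ : Y → ℂ) 1 = n) :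
    n % 13 = 0 ∨ n % 13 = 3 ∨ n % 13 = 10 := by
  have hF : Fact (Nat.Prime 13) := ⟨by norm_num⟩
  have ho : Odd (Nat.card π.ker) := by rw [h3]; decide
  have hnsq : ¬ 13 ^ 2 ∣ Nat.card H := by
    intro h1
    have h2 := h1.trans (card_subgroup_dvd_card H)
    rw [h.card] at h2
    norm_num at h2
  obtain ⟨x', P, hx', hπx, hPx, hcP, hCP, hNP⟩ := exists_sylow hs hc hF.out (by rw [h3]; norm_num) hnsq
    (D13.order' h hH)
  obtain ⟨K, hK⟩ := exists_isComp P hcP
  have hC : Nat.card (centralizer ((P : Subgroup Y) : Set Y)) = 3 * 234 := by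
    rw [hCP, card_comap' hs, h3, D13.card_C h hH hodd hg]
  have he : (centralizer ((P : Subgroup Y) : Set Y)).relIndex (normalizer ((P : Subgroup Y) : Set Y)) = 12 := by
    rw [hCP, hNP, relIndex_comap' hs, D13.relIndex_eq h hH hodd hg]
  have hKc : Nat.card K = 54 := by
    have h1 := (Nat.card_congr (prodEquiv hK hcP).toEquiv).trans hC
    rw [Nat.card_prod] at h1
    have h2 : Nat.card (P : Subgroup Y) = 13 := hcP
    rw [h2] at h1
    omega
  have memK : ∀ {y : Y} {m : ℕ}, (π y : G) ∈ centralizer ((zpowers x : Subgroup G) : Set G) →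
      orderOf y ∣ m → ¬ 13 ∣ m → y ∈ K := by
    intro y m h1 h2 h3
    rw [hK]
    refine ⟨?_, fun h => h3 (h.trans h2)⟩
    rw [hCP, mem_comap, D13.cent_eq h hH, mem_subgroupOf]
    exact h1
  have hcube : ∀ {y : Y}, y ^ 3 ∈ π.ker → y ^ 9 = 1 := by
    intro y hy
    have h5 : (⟨y ^ 3, hy⟩ : π.ker) ^ Nat.card π.ker = 1 := pow_card_eq_one'
    have h6 : (y ^ 3) ^ Nat.card π.ker = 1 := congrArg Subtype.val h5
    rw [h3, ← pow_mul] at h6
    exact h6
  have hAH := A_le h hH hodd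
  have hzz : (⟨l * u, (mul_mem_iff_of_index_two hH).2 ⟨fun h1 => absurd h1 (hodd l h.hl),
      fun h1 => absurd h1 (hodd u h.hu)⟩⟩ : H) * ⟨l * u, (mul_mem_iff_of_index_two hH).2
      ⟨fun h1 => absurd h1 (hodd l h.hl), fun h1 => absurd h1 (hodd u h.hu)⟩⟩ = 1 := by
    apply Subtype.ext
    show l * u * (l * u) = 1
    calc l * u * (l * u) = l * (u * l) * u := by group
      _ = l * (l * u) * u := by rw [h.lu]
      _ = (l * l) * (u * u) := by group
      _ = 1 := by rw [h.ll, h.uu, mul_one]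
  obtain ⟨z, hz, hπz⟩ := exists_sq hc ho hs hzz
  have hπz' : (π z : G) = l * u := by rw [hπz]
  obtain ⟨a, b, ha, hb, hab⟩ := hT
  refine rel13Z hK hcP he hKc (Z := π.ker) hc h3 (E := ((A l k u v).subgroupOf H).comap π) ?_ ?_ ?_ ?_ ?_
    (z := z) ?_ hz ?_ χ hχ hn
  · intro y hy
    have hy' : (π y : G) ∈ A l k u v := mem_subgroupOf.1 hy
    refine memK (m := 9) (D13.A_le_C h hy') (orderOf_dvd_of_pow_eq_one (hcube ?_)) (by norm_num)
    rw [MonoidHom.mem_ker, map_pow, pow_succ, pow_two]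
    exact Subtype.ext (cube_A h hy')
  · rw [card_comap' hs, h3, Nat.card_congr (subgroupOfEquivOfLe hAH).toEquiv, card_A h]
  · intro y hy
    rw [mem_comap, MonoidHom.mem_ker.1 hy]
    exact one_mem _
  · intro p hp q hq
    have e1 : (π p : G) * π q = π q * π p := A_comm h (mem_subgroupOf.1 hp) (mem_subgroupOf.1 hq)
    rw [MonoidHom.mem_ker, map_mul, map_mul, map_mul, map_inv, map_inv]
    apply Subtype.ext
    show (π p : G) * π q * (π p : G)⁻¹ * (π q : G)⁻¹ = 1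
    rw [e1]; group
  · refine ⟨a, ?_, b, ?_, hab⟩
    · rw [mem_comap, mem_subgroupOf, ha]
      exact mem_sup_left (mem_zpowers _)
    · rw [mem_comap, mem_subgroupOf, hb]
      exact mem_sup_right (mem_zpowers _)
  · refine memK (m := 2) ?_ (orderOf_dvd_of_pow_eq_one (by rw [pow_two]; exact hz)) (by norm_num)
    rw [hπz']
    exact T_le_C h (mul_mem (subset_closure (by simp)) (subset_closure (by simp)))
  · intro h1
    apply D13.ne_lu h
    have h2 : (π z : G) = 1 := by rw [h1, map_one]; rfl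
    rw [hπz'] at h2
    have h3 : u = l⁻¹ := eq_inv_of_mul_eq_one_right h2
    rw [h3, inv_eq_of_mul_eq_one_right h.ll]

end

open Cfsg.Agent.R08.FiTwentyFour (finite_Fi24 index_commutator mem_commutator_iff sgn_L)

theorem odd_L : ∀ d ∈ R08.FiTwentyFour.L, d ∉ commutator Fi24 := by
  intro d hd h
  have h1 := mem_commutator_iff.1 h
  rw [sgn_L hd] at h1
  exact absurd h1 (by decide)

theorem mem_mul {a b : Fi24} (ha : a ∈ R08.FiTwentyFour.L) (hb : b ∈ R08.FiTwentyFour.L) :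
    a * b ∈ commutator Fi24 := R08.FiTwentyFour.even ha hb

/-- `l k` -/
def a13 : Spor.Fi24' := ⟨Fischer.Fi24Rep.gen .l * Fischer.Fi24Rep.gen .k,
  mem_mul H845.T13.facts.hl H845.T13.facts.hk⟩

/-- `u v` -/
def b13 : Spor.Fi24' := ⟨H845.T13.u * H845.T13.v, mem_mul H845.T13.facts.hu H845.T13.facts.hv⟩

/-- **Residues modulo 13 of the faithful characters of the triple cover of `Fi24'`.** -/
theorem r13 {Y : Type w} [Group Y] [Finite Y] {π : Y →* Spor.Fi24'} (hs : Function.Surjective π)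
    (hc : π.ker ≤ center Y) (h3 : Nat.card π.ker = 3) (hT : ∃ a b : Y, π a = a13 ∧ π b = b13 ∧ a * b ≠ b * a)
    (χ : IrrCharacter Y) (hχ : ∃ ζ ∈ π.ker, (χ : Y → ℂ) ζ ≠ (χ : Y → ℂ) 1) {n : ℤ} (hn : (χ : Y → ℂ) 1 = n) :
    n % 13 = 0 ∨ n % 13 = 3 ∨ n % 13 = 10 := by
  have := finite_Fi24
  obtain ⟨a, b, ha, hb, hab⟩ := hT
  exact main (l := Fischer.Fi24Rep.gen .l) (k := Fischer.Fi24Rep.gen .k) H845.T13.facts index_commutator odd_L
    D13.conj7 (π := π) hs hc h3
    ⟨a, b, congrArg Subtype.val ha, congrArg Subtype.val hb, hab⟩ χ hχ hn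

end Cfsg.Agent.H133.QS.R13
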