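import Cfsg.Agent.H133.QS.R13
import Cfsg.Agent.H133.QS.R11
import Cfsg.Agent.H265.TF.Zeta

/-!
# `3.Fi24'`: the residues modulo 11 and 13 of the degrees in the explicit triple cover `L3` (helper133)
-/

set_option autoImplicit false
set_option maxRecDepth 100000
set_option Elab.async false

namespace Cfsg.Agent.H133.QS.R13L

open Cfsg Subgroup
open Cfsg.Spor.Fi24 (Gen)
open Cfsg.Agent.H52.ThreeFi24 Cfsg.Agent.H52.ThreeFi24Chk Cfsg.Agent.R08.TThree
open Cfsg.Agent.H265.TF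
open Cfsg.Agent.H845.T13Data (wU wV)
open Cfsg.Agent.H133.QS.R13 (a13 b13)
open Cfsg.Agent.LThreeFi24.FiveConj (eqB)

def bw : List Gen := (wU ++ .l :: wU.reverse) ++ (wV ++ .l :: wV.reverse)
def aw : List Gen := [.l, .k]

theorem chk_comm : eqB (bw ++ aw) (aw ++ bw) = true := by decide +kernel
theorem chk_ne : Nat.beq (im (bw ++ aw ++ bw.reverse ++ aw.reverse)) 0 = false := by decide +kernel

theorem tri' : Tri π3 (wK bw rfl) (wK aw rfl) := tri_of_chk rfl rfl chk_comm chk_ne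

theorem aw_eq : wK aw rfl = a13 := by
  apply Subtype.ext
  show Fischer.Fi24Rep.word aw = Fischer.Fi24Rep.gen .l * Fischer.Fi24Rep.gen .k
  rw [aw, Fischer.Fi24Spider.word_cons, Fischer.Fi24Spider.word_cons, Fischer.Fi24Spider.word_nil, mul_one]

theorem bw_eq : wK bw rfl = b13 := by
  apply Subtype.ext
  show Fischer.Fi24Rep.word bw = H845.T13.u * H845.T13.v
  rw [bw, Fischer.Fi24Spider.word_append]
  rfl

/-- the lifts of `l k` and `u v` do not commute -/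
theorem tri : Tri π3 b13 a13 := by rw [← aw_eq, ← bw_eq]; exact tri'

open Cfsg.Agent.SmallSimple in
/-- **the residues of the degrees of the faithful characters of `L3`** -/
theorem res (χ : IrrCharacter L3) (hχ : ∃ ζ ∈ π3.ker, (χ : L3 → ℂ) ζ ≠ (χ : L3 → ℂ) 1) :
    (charDegree (χ : L3 → ℂ) % 11 = 0 ∨ charDegree (χ : L3 → ℂ) % 11 = 1 ∨ charDegree (χ : L3 → ℂ) % 11 = 2 ∨
      charDegree (χ : L3 → ℂ) % 11 = 3 ∨ charDegree (χ : L3 → ℂ) % 11 = 8 ∨ charDegree (χ : L3 → ℂ) % 11 = 9 ∨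
      charDegree (χ : L3 → ℂ) % 11 = 10) ∧
    (charDegree (χ : L3 → ℂ) % 13 = 0 ∨ charDegree (χ : L3 → ℂ) % 13 = 3 ∨ charDegree (χ : L3 → ℂ) % 13 = 10) := by
  have : Finite P3 := card_P3.1
  have : Finite L3 := inferInstanceAs (Finite ↥(_root_.commutator P3))
  have hn : (χ : L3 → ℂ) 1 = ((charDegree (χ : L3 → ℂ) : ℤ) : ℂ) := by
    rw [Blocks.Knorr.charDegree_eq χ.2]; norm_cast
  obtain ⟨-, a, b, ha, hb, hab⟩ := tri
  have h11 := R11.r11 pce.surj pce.cen card_ker_L3 χ hn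
  have h13 := R13.r13 pce.surj pce.cen card_ker_L3 ⟨b, a, hb, ha, fun h => hab h.symm⟩ χ hχ hn
  omega

end Cfsg.Agent.H133.QS.R13L
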