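import Cfsg.Agent.H26.Ore.Rel
import Cfsg.Agent.H113.QS.Lies

/-!
# Residues of the degrees of the characters of a triple cover, modulo 11 (helper133)

`Z` central of order 3 in `L`, `P` a Sylow subgroup of order 11, `C(P) = P × K`, `|K| = 36`, four-subgroup `A` of `K`.
* `card_mul_sum_le` : a Bessel inequality;
* `rel11Z` : `χ(1)` is `0, ± 1, ± 2, ± 3` modulo 11.
-/

set_option autoImplicit false
set_option linter.unusedSectionVars false

open Cfsg
open scoped ComplexConjugate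

namespace Cfsg.Agent.H133.QS

open Subgroup
open Cfsg.Agent.Characters.Core Cfsg.Agent.Characters.Linear
open Cfsg.Agent.SmallSimple Cfsg.Agent.SmallSimple.PrimeDual Cfsg.Agent.SmallSimple.ThetaSetup
open Cfsg.Agent.SmallSimple.ThetaOrtho Cfsg.Agent.SmallSimple.ThetaGroup
open Cfsg.Agent.SmallSimple.ThetaCount Cfsg.Agent.SmallSimple.TheoremC Cfsg.Agent.SmallSimple.TheoremCCor
open Cfsg.Agent.M23Order.Base (dg dg_eq dg_of_eq dg_dvd sum_dg_sq_le)
open Cfsg.Agent.H26.Ore.Nrm Cfsg.Agent.H26.Ore.Rel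
open Cfsg.Agent.H113.QS (Lies exists_lies theta_norm)

universe u

/-- **Bessel**: characters whose restriction to `M` is a multiple of the same linear character. -/
theorem card_mul_sum_le {H : Type u} [Group H] [Finite H] (M : Subgroup H) (S : Finset (IrrCharacter H)) (ψ : H → ℂ)
    (hψ : ∀ y ∈ M, ‖ψ y‖ = 1) (h : ∀ θ ∈ S, ∀ y ∈ M, (θ : H → ℂ) y = (dg θ : ℂ) * ψ y) :
    Nat.card M * ∑ θ ∈ S, dg θ ^ 2 ≤ Nat.card H := by
  classical
  have := Fintype.ofFinite H
  have hH : (0 : ℝ) < Nat.card H := by exact_mod_cast Nat.card_pos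
  have hHc : (Nat.card H : ℂ) ≠ 0 := by exact_mod_cast hH.ne'
  set F : H → ℂ := fun g => if g ∈ M then ψ g else 0 with hF
  have hsumM : ∀ f : H → ℂ, (∀ g, g ∉ M → f g = 0) → (∀ g ∈ M, f g = 1) → ∑ g : H, f g = Nat.card M := by
    intro f h0 h1
    have h2 : ∀ g, f g = if g ∈ M then 1 else 0 := fun g => by
      split_ifs with hg
      · exact h1 g hg
      · exact h0 g hg
    rw [Finset.sum_congr rfl fun g _ => h2 g, Finset.sum_boole]
    congr 1
    rw [Nat.card_eq_fintype_card, Fintype.card_subtype]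
  have hnn : ∀ y ∈ M, ψ y * conj (ψ y) = 1 := by
    intro y hy
    rw [Complex.mul_conj, Complex.normSq_eq_norm_sq, hψ y hy]
    norm_num
  have hFθ : ∀ θ ∈ S, classInner F (θ : H → ℂ) = (Nat.card M : ℂ) * dg θ / Nat.card H := by
    intro θ hθ
    rw [classInner_def]
    have h1 : ∀ g : H, F g * conj ((θ : H → ℂ) g) = (dg θ : ℂ) * (if g ∈ M then 1 else 0) := by
      intro g
      by_cases hg : g ∈ M
      · rw [hF]
        simp only [if_pos hg]
        rw [h θ hθ g hg, map_mul, map_natCast, mul_one]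
        have := hnn g hg
        linear_combination (dg θ : ℂ) * this
      · rw [hF]
        simp only [if_neg hg, zero_mul, mul_zero]
    rw [Finset.sum_congr rfl fun g _ => h1 g, ← Finset.mul_sum,
      hsumM (fun g => if g ∈ M then 1 else 0) (fun g hg => if_neg hg) (fun g hg => if_pos hg)]
    field_simp
  have hFF : classInner F F = (Nat.card M : ℂ) / Nat.card H := by
    rw [classInner_def, hsumM (fun g => F g * conj (F g))]
    · field_simp
    · intro g hg
      rw [hF]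
      simp only [if_neg hg, zero_mul]
    · intro g hg
      rw [hF]
      simp only [if_pos hg]
      exact hnn g hg
  set c : IrrCharacter H → ℝ := fun θ => (Nat.card M : ℝ) * dg θ / Nat.card H with hc
  have hcF : ∀ θ ∈ S, classInner F (θ : H → ℂ) = (c θ : ℂ) := fun θ hθ => by
    rw [hFθ θ hθ, hc]; push_cast; ring
  have hFc : ∀ θ ∈ S, classInner (θ : H → ℂ) F = (c θ : ℂ) := fun θ hθ => by
    rw [← classInner_conj_symm, hcF θ hθ, Complex.conj_ofReal]
  set D : H → ℂ := F - ∑ θ ∈ S, (c θ : ℂ) • (θ : H → ℂ) with hD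
  have hSS : classInner (∑ θ ∈ S, (c θ : ℂ) • (θ : H → ℂ)) (∑ θ ∈ S, (c θ : ℂ) • (θ : H → ℂ)) =
      ((∑ θ ∈ S, c θ ^ 2 : ℝ) : ℂ) := by
    rw [classInner_sum_left]
    push_cast
    refine Finset.sum_congr rfl fun θ hθ => ?_
    rw [classInner_smul_left, classInner_sum_right, Finset.sum_eq_single θ]
    · rw [classInner_smul_right, classInner_irr_self θ.2, Complex.conj_ofReal]; ring
    · intro θ' _ hne
      rw [classInner_smul_right, classInner_irr_ne θ.2 θ'.2 (fun h => hne (Subtype.ext h.symm)), mul_zero]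
    · exact fun h => absurd hθ h
  have hDD : classInner D D = (((Nat.card M : ℝ) / Nat.card H - ∑ θ ∈ S, c θ ^ 2 : ℝ) : ℂ) := by
    rw [hD, classInner_sub_left, classInner_sub_right, classInner_sub_right, hFF, hSS, classInner_sum_right,
      classInner_sum_left]
    have e1 : ∑ θ ∈ S, classInner F ((c θ : ℂ) • (θ : H → ℂ)) = ((∑ θ ∈ S, c θ ^ 2 : ℝ) : ℂ) := by
      push_cast
      refine Finset.sum_congr rfl fun θ hθ => ?_
      rw [classInner_smul_right, hcF θ hθ, Complex.conj_ofReal]; ring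
    have e2 : ∑ θ ∈ S, classInner ((c θ : ℂ) • (θ : H → ℂ)) F = ((∑ θ ∈ S, c θ ^ 2 : ℝ) : ℂ) := by
      push_cast
      refine Finset.sum_congr rfl fun θ hθ => ?_
      rw [classInner_smul_left, hFc θ hθ]; ring
    rw [e1, e2]
    push_cast
    ring
  have hpos : 0 ≤ (Nat.card M : ℝ) / Nat.card H - ∑ θ ∈ S, c θ ^ 2 := by
    have h1 := classInner_self_eq_ofReal D
    rw [hDD] at h1
    have h2 := Complex.ofReal_injective h1
    rw [h2]
    exact mul_nonneg (by positivity) (Finset.sum_nonneg fun _ _ => Complex.normSq_nonneg _)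
  have h3 : ∑ θ ∈ S, c θ ^ 2 = (Nat.card M : ℝ) ^ 2 / (Nat.card H : ℝ) ^ 2 * ∑ θ ∈ S, (dg θ : ℝ) ^ 2 := by
    rw [Finset.mul_sum]
    refine Finset.sum_congr rfl fun θ _ => ?_
    rw [hc]
    ring
  rw [h3] at hpos
  have hM : (0 : ℝ) < Nat.card M := by exact_mod_cast Nat.card_pos
  have h4 : (Nat.card M : ℝ) * ∑ θ ∈ S, (dg θ : ℝ) ^ 2 ≤ Nat.card H := by
    have h5 : (Nat.card M : ℝ) ^ 2 / (Nat.card H : ℝ) ^ 2 * ∑ θ ∈ S, (dg θ : ℝ) ^ 2 ≤
        (Nat.card M : ℝ) / Nat.card H := by linarith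
    rw [div_mul_eq_mul_div, div_le_div_iff₀ (by positivity) hH] at h5
    have h6 : (Nat.card M : ℝ) * Nat.card H * ((Nat.card M : ℝ) * ∑ θ ∈ S, (dg θ : ℝ) ^ 2) ≤
        (Nat.card M : ℝ) * Nat.card H * Nat.card H := by nlinarith
    exact le_of_mul_le_mul_left h6 (by positivity)
  exact_mod_cast h4

section

variable {G : Type u} [Group G] [Finite G] {p : ℕ} [Fact p.Prime] {P : Sylow p G} {K A Z : Subgroup G}

/-- the conjugates of a character lie over the same central character -/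
theorem lies_orb (hK : IsComp p (P : Subgroup G) K) (hZ : Z ≤ center G) {θ θ' : IrrCharacter K}
    {μ : IrrCharacter (Z.subgroupOf K)} (h : Lies (Z.subgroupOf K) (μ : Z.subgroupOf K → ℂ) (θ : K → ℂ))
    (h' : θ' ∈ orb P K (θ : K → ℂ)) : Lies (Z.subgroupOf K) (μ : Z.subgroupOf K → ℂ) (θ' : K → ℂ) := by
  obtain ⟨n, hn, h1⟩ := mem_orb.1 h'
  intro g z
  rw [← h1, tw_apply hK _ hn, tw_apply hK _ hn]
  have hz : ((z : K) : G) ∈ center G := hZ (mem_subgroupOf.1 z.2)
  have h2 := h ⟨n * g * n⁻¹, conj_mem hK hn g.2⟩ z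
  rw [← h2]
  refine congrArg (θ : K → ℂ) (Subtype.ext ?_)
  show n * ((g : G) * z) * n⁻¹ = n * g * n⁻¹ * z
  have h3 := mem_center_iff.1 hz n⁻¹
  calc n * ((g : G) * z) * n⁻¹ = n * g * (z * n⁻¹) := by group
    _ = n * g * (n⁻¹ * z) := by rw [h3]
    _ = n * g * n⁻¹ * z := by group

theorem center_sub (hZ : Z ≤ center G) : Z.subgroupOf K ≤ center K := by
  intro z hz
  rw [mem_center_iff]
  intro g
  exact Subtype.ext (mem_center_iff.1 (hZ (mem_subgroupOf.1 hz)) g)

end

/-- **residues modulo 11 in a triple cover** -/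
theorem rel11Z {G : Type u} [Group G] [Finite G] [Fact (Nat.Prime 11)] {P : Sylow 11 G} {K A Z : Subgroup G}
    (hK : IsComp 11 (P : Subgroup G) K) (hP : Nat.card P = 11)
    (he : (centralizer ((P : Subgroup G) : Set G)).relIndex (normalizer ((P : Subgroup G) : Set G)) = 10)
    (hKc : Nat.card K = 36) (hZ : Z ≤ center G) (hZc : Nat.card Z = 3) (hZK : Z ≤ K) (hAK : A ≤ K)
    (hAc : Nat.card A = 4) (hAN : ∀ n ∈ normalizer ((P : Subgroup G) : Set G), ∀ a ∈ A, n * a * n⁻¹ ∈ A) {z : G}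
    (hzA : z ∈ A) (hz : z * z = 1) (hconj : ∀ a ∈ A, a ≠ 1 → ∃ k ∈ K, k * a * k⁻¹ = z)
    (χ : IrrCharacter G) {n : ℤ} (hn : (χ : G → ℂ) 1 = n) :
    n % 11 = 0 ∨ n % 11 = 1 ∨ n % 11 = 2 ∨ n % 11 = 3 ∨ n % 11 = 8 ∨ n % 11 = 9 ∨ n % 11 = 10 := by
  classical
  have : Finite (IrrCharacter K) := finite_irr
  have := Fintype.ofFinite (IrrCharacter K)
  have := Fintype.ofFinite A
  have hAn := normal_sub hK hAN
  rcases key hK hP he (t := 1) (by norm_num) χ (one_mem K) (one_mul 1) hn hn with h |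
    ⟨θ, e', m, c, hm, hem, hc, h1, -⟩
  · left; exact Int.emod_eq_zero_of_dvd (by exact_mod_cast h.1)
  have hm0 : 0 < m := Nat.pos_of_ne_zero (by rintro rfl; simp at hem)
  have hd0 : 0 < dg θ := Nat.pos_of_ne_zero (M23Order.Base.dg_ne_zero θ)
  obtain ⟨μ, hμ⟩ := exists_lies (center_sub (K := K) hZ) θ
  have hsum : ∀ M : Subgroup K, (∀ y ∈ M, ‖(θ : K → ℂ) y / dg θ‖ = 1) →
      (∀ θ' ∈ orb P K (θ : K → ℂ), ∀ y ∈ M, (θ' : K → ℂ) y = (dg θ' : ℂ) * ((θ : K → ℂ) y / dg θ)) →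
      Nat.card M * (m * dg θ ^ 2) ≤ 36 := by
    intro M g1 g2
    have g3 := card_mul_sum_le M (orb P K (θ : K → ℂ)) (fun y => (θ : K → ℂ) y / dg θ) g1 g2
    rwa [Finset.sum_congr rfl (g := fun _ => dg θ ^ 2) (fun θ' h => by rw [dg_orb hK h]), Finset.sum_const,
      smul_eq_mul, ← hm, hKc] at g3
  have hdc : (dg θ : ℂ) ≠ 0 := by exact_mod_cast hd0.ne'
  have hZ1 : ∀ θ' ∈ orb P K (θ : K → ℂ), ∀ y : K, ∀ z : Z.subgroupOf K, (θ' : K → ℂ) (y * z) =
      (θ' : K → ℂ) y * (μ : Z.subgroupOf K → ℂ) z := fun θ' h' => lies_orb hK hZ hμ h'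
  have hmu : ∀ z : Z.subgroupOf K, ‖(μ : Z.subgroupOf K → ℂ) z‖ = 1 := fun z => theta_norm (center_sub hZ) μ z
  by_cases hker : InKer A (θ : K → ℂ)
  · -- `A` in the kernel
    have h3 : Nat.card ↥(A.subgroupOf K ⊔ Z.subgroupOf K) * (m * dg θ ^ 2) ≤ 36 := by
      apply hsum
      · intro y hy
        rw [sup_comm] at hy
        obtain ⟨w, hw, a, ha, rfl⟩ := (Subgroup.mem_sup_of_normal_right).1 hy
        have e1 : w * a = a * w := (mem_center_iff.1 (center_sub (K := K) hZ hw) a).symm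
        rw [e1, hμ a ⟨w, hw⟩]
        have e2 := hker a ha 1
        rw [mul_one, dg_eq] at e2
        rw [e2, mul_div_assoc, mul_comm, div_mul_cancel₀ _ hdc]
        exact hmu _
      · intro θ' hθ' y hy
        rw [sup_comm] at hy
        obtain ⟨w, hw, a, ha, rfl⟩ := (Subgroup.mem_sup_of_normal_right).1 hy
        have e1 : w * a = a * w := (mem_center_iff.1 (center_sub (K := K) hZ hw) a).symm
        rw [e1, hμ a ⟨w, hw⟩, hZ1 θ' hθ' a ⟨w, hw⟩]
        have e2 := hker a ha 1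
        have e3 := (inKer_orb hK hAN hθ').2 hker a ha 1
        rw [mul_one, dg_eq] at e2 e3
        rw [e2, e3]
        field_simp
    have h12 : 12 ≤ Nat.card ↥(A.subgroupOf K ⊔ Z.subgroupOf K) := by
      have g4 : 4 ∣ Nat.card ↥(A.subgroupOf K ⊔ Z.subgroupOf K) := by
        rw [← hAc, ← Nat.card_congr (subgroupOfEquivOfLe hAK).toEquiv]
        exact card_dvd_of_le le_sup_left
      have g3 : 3 ∣ Nat.card ↥(A.subgroupOf K ⊔ Z.subgroupOf K) := by
        rw [← hZc, ← Nat.card_congr (subgroupOfEquivOfLe hZK).toEquiv]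
        exact card_dvd_of_le le_sup_right
      exact Nat.le_of_dvd Nat.card_pos (Nat.Coprime.mul_dvd_of_dvd_of_dvd (by norm_num : Nat.Coprime 4 3) g4 g3)
    have g3 : m * dg θ ^ 2 ≤ 3 := by
      by_contra hlt
      have : 12 * 4 ≤ Nat.card ↥(A.subgroupOf K ⊔ Z.subgroupOf K) * (m * dg θ ^ 2) :=
        Nat.mul_le_mul h12 (by omega)
      omega
    have hd1 : dg θ = 1 := by
      have : dg θ ^ 2 ≤ 3 := le_trans (Nat.le_mul_of_pos_left _ hm0) g3
      by_contra hne
      have : 2 ≤ dg θ := by omega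
      nlinarith
    rw [hd1] at h1 g3
    have hm3 : m ≤ 3 := by simpa using g3
    have hcases : (m = 1 ∧ e' = 10) ∨ (m = 2 ∧ e' = 5) := by
      interval_cases m <;> omega
    norm_num at h1
    rcases hcases with ⟨rfl, rfl⟩ | ⟨rfl, rfl⟩ <;> rcases hc with rfl | rfl | rfl | rfl <;> norm_num at h1 <;> omega
  · have hval : ∃ w : ℤ, (dg θ : ℤ) + 3 * w = 0 := by
      obtain ⟨w, hw⟩ := exists_int_invol (isIrr_isCharacter θ.2) (t := (⟨z, hAK hzA⟩ : K)) (Subtype.ext hz)
      refine ⟨w, ?_⟩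
      have := Fintype.ofFinite (A.subgroupOf K)
      rcases dich (A.subgroupOf K) θ.2 with h | h
      · exact absurd h hker
      have h3 := h 1
      have h4 : ∀ a : A.subgroupOf K, (θ : K → ℂ) ((a : K) * 1) = w + if a = 1 then (dg θ : ℂ) - w else 0 := by
        intro a
        rw [mul_one]
        split_ifs with ha
        · rw [ha, OneMemClass.coe_one, dg_eq]
          ring
        · obtain ⟨k, hk, hkz⟩ := hconj ((a : K) : G) (mem_subgroupOf.1 a.2) (fun h => ha (Subtype.ext (Subtype.ext h)))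
          rw [add_zero, ← hw, ← isIrr_isClassFunction θ.2 (a : K) ⟨k, hk⟩]
          exact congrArg (θ : K → ℂ) (Subtype.ext hkz)
      rw [Finset.sum_congr rfl fun a _ => h4 a, Finset.sum_add_distrib, Finset.sum_const, Finset.sum_ite_eq',
        if_pos (Finset.mem_univ _), nsmul_eq_mul, Finset.card_univ, ← Nat.card_eq_fintype_card,
        Nat.card_congr (subgroupOfEquivOfLe hAK).toEquiv, hAc] at h3
      have h5 : (((dg θ : ℤ) + 3 * w : ℤ) : ℂ) = 0 := by push_cast; push_cast at h3; linear_combination h3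
      exact_mod_cast h5
    obtain ⟨w, hw⟩ := hval
    have hsq : m * dg θ ^ 2 ≤ 12 := by
      have h3 := hsum (Z.subgroupOf K) (fun y hy => by
          have e1 := hμ 1 ⟨y, hy⟩
          rw [one_mul, dg_eq] at e1
          show ‖(θ : K → ℂ) y / dg θ‖ = 1
          rw [show (θ : K → ℂ) y = dg θ * (μ : Z.subgroupOf K → ℂ) ⟨y, hy⟩ from e1, mul_comm, mul_div_assoc,
            div_self hdc, mul_one]
          exact hmu _) (fun θ' hθ' y hy => by
          have e1 := hμ 1 ⟨y, hy⟩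
          have e2 := hZ1 θ' hθ' 1 ⟨y, hy⟩
          rw [one_mul, dg_eq] at e1 e2
          rw [show (θ : K → ℂ) y = dg θ * (μ : Z.subgroupOf K → ℂ) ⟨y, hy⟩ from e1,
            show (θ' : K → ℂ) y = dg θ' * (μ : Z.subgroupOf K → ℂ) ⟨y, hy⟩ from e2]
          field_simp)
      rw [Nat.card_congr (subgroupOfEquivOfLe hZK).toEquiv, hZc] at h3
      omega
    have hd3 : dg θ = 3 := by
      have h3 : dg θ ^ 2 ≤ 12 := le_trans (Nat.le_mul_of_pos_left _ hm0) hsq
      have h4 : dg θ ≤ 3 := by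
        by_contra hne
        have : 4 ≤ dg θ := by omega
        nlinarith
      omega
    have hm1 : m = 1 := by rw [hd3] at hsq; omega
    subst hm1
    have he10 : e' = 10 := by omega
    subst he10
    rw [hd3] at h1
    norm_num at h1
    rcases hc with rfl | rfl | rfl | rfl <;> norm_num at h1 <;> omega

end Cfsg.Agent.H133.QS
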