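import Cfsg.Agent.H133.QS.Rel

/-!
# Residues of the degrees of the faithful characters of a triple cover, modulo 13 (helper133)

`Z` central of order 3, `P` a Sylow subgroup of order 13, `C(P) = P × K`, `|K| = 54`, `|N(P) : C(P)| = 12`, `K` has a
non-abelian subgroup `E` of order 27 with `[E, E] ≤ Z`.
* `cen_eq` : the constituents of the restriction to `K` which are counted modulo `p` lie over the central character of `χ`;
* `sum_over` : the second orthogonality relation over a central character;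
* `rel13Z` : `χ(1)` is `0, ± 3` modulo 13 if `χ` is not trivial on `Z`.
-/

set_option autoImplicit false
set_option linter.unusedSectionVars false

open Cfsg
open scoped ComplexConjugate

namespace Cfsg.Agent.H133.QS

open Subgroup
open Cfsg.Agent.Characters.Core Cfsg.Agent.Characters.Linear
open Cfsg.Agent.SmallSimple Cfsg.Agent.SmallSimple.PrimeDual Cfsg.Agent.SmallSimple.ThetaSetup
open Cfsg.Agent.SmallSimple.ThetaOrtho Cfsg.Agent.SmallSimple.ThetaGroup
open Cfsg.Agent.SmallSimple.ThetaCount Cfsg.Agent.SmallSimple.TheoremC Cfsg.Agent.SmallSimple.TheoremCCor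
open Cfsg.Agent.M23Order.Base (dg dg_eq dg_of_eq dg_dvd sum_dg_sq_le)
open Cfsg.Agent.H26.Ore Cfsg.Agent.H26.Ore.Nrm Cfsg.Agent.H26.Ore.Rel
open Cfsg.Agent.H113.QS (Lies exists_lies theta_norm)

universe u

section Central

variable {H : Type u} [Group H] [Finite H] {Z : Subgroup H}

/-- **the second orthogonality relation over a central character** -/
theorem sum_over (hZ : Z ≤ center H) [Fintype (IrrCharacter H)] (μ : IrrCharacter Z) {z : H}
    (hz : ∀ ζ ∈ Z, ¬ IsConj ζ z) (S : Finset (IrrCharacter H))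
    (hS : ∀ θ : IrrCharacter H, θ ∈ S ↔ Lies Z (μ : Z → ℂ) (θ : H → ℂ)) :
    ∑ θ ∈ S, (dg θ : ℂ) * conj ((θ : H → ℂ) z) = 0 := by
  classical
  have := Fintype.ofFinite H
  have := Fintype.ofFinite Z
  choose Θ hΘ using exists_lies (L := H) hZ
  have hcard : (Nat.card Z : ℂ) ≠ 0 := by exact_mod_cast Nat.card_pos.ne'
  have h1 : ∑ ζ : Z, conj ((μ : Z → ℂ) ζ) * ∑ θ : IrrCharacter H, (θ : H → ℂ) ζ * conj ((θ : H → ℂ) z) =
      (Nat.card Z : ℂ) * ∑ θ ∈ S, (dg θ : ℂ) * conj ((θ : H → ℂ) z) := by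
    simp only [Finset.mul_sum]
    rw [Finset.sum_comm]
    have e0 : ∑ θ ∈ S, (Nat.card Z : ℂ) * ((dg θ : ℂ) * conj ((θ : H → ℂ) z)) =
        ∑ θ : IrrCharacter H, if θ ∈ S then (Nat.card Z : ℂ) * ((dg θ : ℂ) * conj ((θ : H → ℂ) z)) else 0 := by
      rw [Finset.sum_ite_mem, Finset.univ_inter]
    rw [e0]
    refine Finset.sum_congr rfl fun θ _ => ?_
    have h2 : ∀ ζ : Z, conj ((μ : Z → ℂ) ζ) * ((θ : H → ℂ) ζ * conj ((θ : H → ℂ) z)) =
        (dg θ : ℂ) * conj ((θ : H → ℂ) z) * ((Θ θ : Z → ℂ) ζ * conj ((μ : Z → ℂ) ζ)) := by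
      intro ζ
      have h := hΘ θ 1 ζ
      rw [one_mul, dg_eq] at h
      rw [h]
      ring
    rw [Finset.sum_congr rfl fun z _ => h2 z, ← Finset.mul_sum]
    have h3 : ∑ ζ : Z, (Θ θ : Z → ℂ) ζ * conj ((μ : Z → ℂ) ζ) = if Θ θ = μ then (Nat.card Z : ℂ) else 0 := by
      split_ifs with h
      · have h4 := classInner_irr_self μ.2
        rw [classInner, inv_mul_eq_one₀ hcard, eq_comm] at h4
        rw [h]
        exact h4
      · have h4 := classInner_irr_ne (Θ θ).2 μ.2 fun h5 => h (Subtype.ext h5)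
        rw [classInner] at h4
        rcases mul_eq_zero.1 h4 with h5 | h5
        · exact absurd (inv_eq_zero.1 h5) hcard
        · exact h5
    rw [h3]
    by_cases h : Θ θ = μ
    · rw [if_pos h, if_pos ((hS θ).2 (h ▸ hΘ θ))]; ring
    · rw [if_neg h, if_neg fun h5 => h ((hΘ θ).unique ((hS θ).1 h5))]; ring
  have h2 : ∑ ζ : Z, conj ((μ : Z → ℂ) ζ) * ∑ θ : IrrCharacter H, (θ : H → ℂ) ζ * conj ((θ : H → ℂ) z) = 0 := by
    refine Finset.sum_eq_zero fun ζ _ => ?_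
    rw [S0145.sum_irr_mul_conj, if_neg (hz ζ ζ.2), mul_zero]
  rw [h2] at h1
  rcases mul_eq_zero.1 h1.symm with h | h
  · exact absurd h hcard
  · exact h

/-- the central characters of the constituents of a restriction -/
theorem cen_eq {G : Type u} [Group G] [Finite G] {K Z : Subgroup G} (hZK : Z ≤ K) [Fintype (IrrCharacter K)]
    {χ : IrrCharacter G} {ν : IrrCharacter Z} (hν : Lies Z (ν : Z → ℂ) (χ : G → ℂ)) (hZ : Z ≤ center G)
    {M : IrrCharacter K → ℕ} (hM : ∀ y : K, (χ : G → ℂ) y = ∑ θ : IrrCharacter K, (M θ : ℂ) * (θ : K → ℂ) y)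
    {θ : IrrCharacter K} (hθ : M θ ≠ 0) {μ : IrrCharacter (Z.subgroupOf K)}
    (hμ : Lies (Z.subgroupOf K) (μ : Z.subgroupOf K → ℂ) (θ : K → ℂ)) (ζ : G) (hζ : ζ ∈ Z) :
    (μ : Z.subgroupOf K → ℂ) ⟨⟨ζ, hZK hζ⟩, mem_subgroupOf.2 hζ⟩ = (ν : Z → ℂ) ⟨ζ, hζ⟩ := by
  classical
  choose Θ hΘ using exists_lies (L := K) (center_sub (K := K) hZ)
  have hΘμ : Θ θ = μ := (hΘ θ).unique hμ
  rw [← hΘμ]
  set w : Z.subgroupOf K := ⟨⟨ζ, hZK hζ⟩, mem_subgroupOf.2 hζ⟩ with hw
  set a : ℂ := (ν : Z → ℂ) ⟨ζ, hζ⟩ with ha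
  have hna : ‖a‖ = 1 := theta_norm hZ ν _
  have hnw : ∀ θ' : IrrCharacter K, ‖(Θ θ' : Z.subgroupOf K → ℂ) w‖ = 1 := fun θ' => theta_norm (center_sub hZ) _ _
  have e1 : ∑ θ' : IrrCharacter K, (M θ' : ℂ) * (dg θ' : ℂ) * ((Θ θ' : Z.subgroupOf K → ℂ) w - a) = 0 := by
    have h1 := hM ⟨ζ, hZK hζ⟩
    have h2 := hM 1
    have h3 := hν 1 ⟨ζ, hζ⟩
    rw [one_mul] at h3
    have h4 : ∀ θ' : IrrCharacter K, (θ' : K → ℂ) ⟨ζ, hZK hζ⟩ = (dg θ' : ℂ) * (Θ θ' : Z.subgroupOf K → ℂ) w := by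
      intro θ'
      have h := hΘ θ' 1 w
      rw [one_mul, dg_eq] at h
      exact h
    rw [Finset.sum_congr rfl fun θ' _ => by rw [h4 θ']] at h1
    rw [Finset.sum_congr rfl fun θ' _ => by rw [dg_eq θ']] at h2
    have h5 : (χ : G → ℂ) ζ = (χ : G → ℂ) 1 * a := h3
    have h1' : (χ : G → ℂ) ζ = ∑ θ' : IrrCharacter K, (M θ' : ℂ) * ((dg θ' : ℂ) * (Θ θ' : Z.subgroupOf K → ℂ) w) := h1
    have h2' : (χ : G → ℂ) 1 = ∑ θ' : IrrCharacter K, (M θ' : ℂ) * (dg θ' : ℂ) := h2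
    rw [h1', h2', Finset.sum_mul] at h5
    have h6 : ∑ θ' : IrrCharacter K, (M θ' : ℂ) * (dg θ' : ℂ) * ((Θ θ' : Z.subgroupOf K → ℂ) w - a) =
        ∑ θ' : IrrCharacter K, (M θ' : ℂ) * ((dg θ' : ℂ) * (Θ θ' : Z.subgroupOf K → ℂ) w) -
          ∑ θ' : IrrCharacter K, (M θ' : ℂ) * (dg θ' : ℂ) * a := by
      rw [← Finset.sum_sub_distrib]
      exact Finset.sum_congr rfl fun _ _ => by ring
    rw [h6, h5, sub_self]
  -- multiply by `conj a` and take real parts
  have haa : a * conj a = 1 := by rw [Complex.mul_conj, Complex.normSq_eq_norm_sq, hna]; norm_num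
  have e2 : ∑ θ' : IrrCharacter K, (M θ' : ℝ) * (dg θ' : ℝ) *
      (1 - ((Θ θ' : Z.subgroupOf K → ℂ) w * conj a).re) = 0 := by
    have h1 : (∑ θ' : IrrCharacter K, (M θ' : ℂ) * (dg θ' : ℂ) * ((Θ θ' : Z.subgroupOf K → ℂ) w - a)) * conj a = 0 := by
      rw [e1, zero_mul]
    rw [Finset.sum_mul] at h1
    have h2 := congrArg Complex.re h1
    rw [Complex.re_sum, Complex.zero_re] at h2
    rw [← neg_eq_zero, ← Finset.sum_neg_distrib, ← h2]
    refine Finset.sum_congr rfl fun θ' _ => ?_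
    have h3 : (M θ' : ℂ) * (dg θ' : ℂ) * ((Θ θ' : Z.subgroupOf K → ℂ) w - a) * conj a =
        ((M θ' * dg θ' : ℝ) : ℂ) * ((Θ θ' : Z.subgroupOf K → ℂ) w * conj a - 1) := by
      rw [← haa]; push_cast; ring
    rw [h3, Complex.re_ofReal_mul, Complex.sub_re, Complex.one_re]
    ring
  have hle : ∀ θ' : IrrCharacter K, ((Θ θ' : Z.subgroupOf K → ℂ) w * conj a).re ≤ 1 := fun θ' => by
    refine (Complex.re_le_norm _).trans ?_
    rw [norm_mul, hnw, one_mul, RCLike.norm_conj, hna]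
  have e3 := (Finset.sum_eq_zero_iff_of_nonneg (fun θ' _ => mul_nonneg (by positivity)
    (sub_nonneg.2 (hle θ')))).1 e2 θ (Finset.mem_univ _)
  have hpos : (M θ : ℝ) * (dg θ : ℝ) ≠ 0 := by
    have h1 := M23Order.Base.dg_ne_zero θ
    positivity
  have e4 : ((Θ θ : Z.subgroupOf K → ℂ) w * conj a).re = 1 := by
    rcases mul_eq_zero.1 e3 with h | h
    · exact absurd h hpos
    · linarith
  have e5 : (Θ θ : Z.subgroupOf K → ℂ) w * conj a = 1 := by
    have h1 : ‖(Θ θ : Z.subgroupOf K → ℂ) w * conj a‖ = 1 := by rw [norm_mul, hnw, one_mul, RCLike.norm_conj, hna]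
    have h2 := Complex.sq_norm ((Θ θ : Z.subgroupOf K → ℂ) w * conj a)
    rw [h1, Complex.normSq_apply, e4] at h2
    have h3 : ((Θ θ : Z.subgroupOf K → ℂ) w * conj a).im = 0 := by
      have : ((Θ θ : Z.subgroupOf K → ℂ) w * conj a).im * ((Θ θ : Z.subgroupOf K → ℂ) w * conj a).im = 0 := by
        linarith
      exact mul_self_eq_zero.1 this
    exact Complex.ext e4 h3
  calc (Θ θ : Z.subgroupOf K → ℂ) w = (Θ θ : Z.subgroupOf K → ℂ) w * (a * conj a) := by rw [haa, mul_one]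
    _ = ((Θ θ : Z.subgroupOf K → ℂ) w * conj a) * a := by ring
    _ = a := by rw [e5, one_mul]

/-- a central element of a non-abelian group of order 27 with commutators in `Z`, `|Z| = 3`, lies in `Z` -/
theorem mem_of_comm {G : Type u} [Group G] [Finite G] {E Z : Subgroup G} (hEc : Nat.card E = 27) (hZc : Nat.card Z = 3)
    (hZE : Z ≤ E) (hZ : Z ≤ center G) (hna : ∃ a ∈ E, ∃ b ∈ E, a * b ≠ b * a) {y : G} (hy : y ∈ E)
    (h : ∀ a ∈ E, a * y = y * a) : y ∈ Z := by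
  have h3 : Fact (Nat.Prime 3) := ⟨Nat.prime_three⟩
  have hle : Z.subgroupOf E ≤ center E := fun z hz => by
    rw [mem_center_iff]
    exact fun g => Subtype.ext (mem_center_iff.1 (hZ (mem_subgroupOf.1 hz)) g)
  have hZE' : Nat.card (Z.subgroupOf E) = 3 := by rw [Nat.card_congr (subgroupOfEquivOfLe hZE).toEquiv, hZc]
  have hd : Nat.card (center E) ∣ 3 ^ 3 := by
    have := card_subgroup_dvd_card (center E)
    rw [hEc] at this
    exact this
  obtain ⟨i, hi, hc⟩ := (Nat.dvd_prime_pow Nat.prime_three).1 hd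
  have hge := Subgroup.card_le_of_le hle
  rw [hZE', hc] at hge
  have hnc : ∀ {n : ℕ}, Nat.card (E ⧸ center E) = n → (n = 1 ∨ n = 3) → False := by
    intro n hn hcase
    have hcyc : IsCyclic (E ⧸ center E) := by
      rcases hcase with rfl | rfl
      · have : Subsingleton (E ⧸ center E) := (Nat.card_eq_one_iff_unique.1 hn).1
        infer_instance
      · exact isCyclic_of_prime_card hn
    obtain ⟨a, ha, b, hb, hab⟩ := hna
    have := commutative_of_cyclic_center_quotient (QuotientGroup.mk' (center E)) (by rw [QuotientGroup.ker_mk'])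
      (⟨a, ha⟩ : E) ⟨b, hb⟩
    exact hab (congrArg Subtype.val this)
  have hidx := Subgroup.card_mul_index (center E)
  rw [hc, hEc, Subgroup.index_eq_card] at hidx
  have hi1 : i = 1 := by
    interval_cases i
    · norm_num at hge
    · rfl
    · exact (hnc (n := 3) (by omega) (Or.inr rfl)).elim
    · exact (hnc (n := 1) (by omega) (Or.inl rfl)).elim
  rw [hi1, pow_one] at hc
  have heq : Z.subgroupOf E = center E := Subgroup.eq_of_le_of_card_ge hle (by rw [hc, hZE'])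
  have h4 : (⟨y, hy⟩ : E) ∈ center E := mem_center_iff.2 fun g => Subtype.ext (h g g.2)
  rw [← heq] at h4
  exact mem_subgroupOf.1 h4

end Central

end Cfsg.Agent.H133.QS
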