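import Cfsg.Agent.H133.QS.RelB
import Cfsg.Agent.H845.T13Concl

/-!
# Residues of the degrees of the faithful characters of a triple cover, modulo 13 (helper133)

* `rel13Z` : `χ(1)` is `0, ± 3` modulo 13 if `χ` is not trivial on `Z`.
-/

set_option autoImplicit false
set_option linter.unusedSectionVars false

open Cfsg
open scoped ComplexConjugate

namespace Cfsg.Agent.H133.QS

open Subgroup
open Cfsg.Agent.Characters.Core Cfsg.Agent.Characters.Linear
open Cfsg.Agent.SmallSimple Cfsg.Agent.SmallSimple.PrimeDual Cfsg.Agent.SmallSimple.ThetaSetup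
open Cfsg.Agent.SmallSimple.ThetaOrtho Cfsg.Agent.SmallSimple.ThetaGroup
open Cfsg.Agent.SmallSimple.ThetaCount Cfsg.Agent.SmallSimple.TheoremC Cfsg.Agent.SmallSimple.TheoremCCor
open Cfsg.Agent.M23Order.Base (dg dg_eq dg_of_eq dg_dvd sum_dg_sq_le)
open Cfsg.Agent.H26.Ore Cfsg.Agent.H26.Ore.Nrm Cfsg.Agent.H26.Ore.Rel
open Cfsg.Agent.H113.QS (Lies exists_lies theta_norm)

universe u

/-- the value at an involution is an integer of the parity of the degree -/
theorem exists_par {H : Type u} [Group H] [Finite H] (θ : IrrCharacter H) {t : H} (ht : t * t = 1) :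
    ∃ w : ℤ, (θ : H → ℂ) t = w ∧ (2 : ℤ) ∣ (dg θ : ℤ) - w := by
  obtain ⟨m, h1, h2, -⟩ := H729.Norm.exists_mult (isIrr_isCharacter θ.2) (p := 2) (by norm_num) (by rw [pow_two, ht])
  rw [Finset.sum_range_succ, Finset.sum_range_succ, Finset.sum_range_zero, zero_add] at h1
  rw [Finset.sum_range_succ, Finset.sum_range_succ, Finset.sum_range_zero, zero_add, pow_zero, pow_one, ← h1] at h2
  refine ⟨(m 0 : ℤ) - m 1, ?_, m 1, ?_⟩
  · push_cast
    push_cast at h2
    linear_combination h2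
  · have h3 : ((dg θ : ℤ) : ℂ) = ((m 0 + m 1 : ℤ) : ℂ) := by
      push_cast
      rw [h1, dg_eq]
    have h4 : (dg θ : ℤ) = m 0 + m 1 := by exact_mod_cast h3
    rw [h4]; ring

/-- an irreducible character over a non-trivial character of `Z` vanishes on `E \ Z`, and `3 ∣ θ(1)` -/
theorem three_dvd {K : Type u} [Group K] [Finite K] {E Z : Subgroup K} (hZ : Z ≤ center K) (hZc : Nat.card Z = 3)
    (hEc : Nat.card E = 27) (hZE : Z ≤ E) (hEZ : ∀ a ∈ E, ∀ b ∈ E, a * b * a⁻¹ * b⁻¹ ∈ Z)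
    (hna : ∃ a ∈ E, ∃ b ∈ E, a * b ≠ b * a) {θ : IrrCharacter K} {μ : IrrCharacter Z}
    (hμ : Lies Z (μ : Z → ℂ) (θ : K → ℂ)) (h1 : ∀ ζ : Z, ζ ≠ 1 → (μ : Z → ℂ) ζ ≠ 1) : 3 ∣ dg θ := by
  classical
  have := Fintype.ofFinite K
  have := Fintype.ofFinite E
  have hvan : ∀ y ∈ E, y ∉ Z → (θ : K → ℂ) y = 0 := by
    intro y hy hyZ
    have h2 : ∃ a ∈ E, a * y ≠ y * a := by
      by_contra hcon
      push Not at hcon
      exact hyZ (mem_of_comm hEc hZc hZE hZ hna hy hcon)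
    obtain ⟨a, ha, hay⟩ := h2
    have hζ := hEZ a ha y hy
    set ζ : Z := ⟨a * y * a⁻¹ * y⁻¹, hζ⟩ with hζd
    have hζ1 : ζ ≠ 1 := by
      intro h
      apply hay
      have h3 : a * y * a⁻¹ * y⁻¹ = 1 := congrArg Subtype.val h
      calc a * y = (a * y * a⁻¹ * y⁻¹) * (y * a) := by group
        _ = y * a := by rw [h3, one_mul]
    have h3 : (θ : K → ℂ) (a * y * a⁻¹) = (θ : K → ℂ) y := isClassFunction_def.1 (isIrr_isClassFunction θ.2) y a
    have h4 : a * y * a⁻¹ = y * ζ := by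
      have h5 := mem_center_iff.1 (hZ hζ) y
      calc a * y * a⁻¹ = (a * y * a⁻¹ * y⁻¹) * y := by group
        _ = y * (a * y * a⁻¹ * y⁻¹) := h5.symm
    rw [h4, hμ y ζ] at h3
    have h5 : (θ : K → ℂ) y * ((μ : Z → ℂ) ζ - 1) = 0 := by rw [mul_sub, h3, mul_one, sub_self]
    rcases mul_eq_zero.1 h5 with h | h
    · exact h
    · exact absurd (sub_eq_zero.1 h) (h1 ζ hζ1)
  -- the norm of the restriction
  obtain ⟨k, hk⟩ := classInner_isNat (G := E) (isCharacter_comp E.subtype (isIrr_isCharacter θ.2))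
    (isCharacter_comp E.subtype (isIrr_isCharacter θ.2))
  rw [classInner_def] at hk
  have h2 : ∀ y : E, ((θ : K → ℂ) ∘ E.subtype) y * conj (((θ : K → ℂ) ∘ E.subtype) y) =
      if (y : K) ∈ Z then (dg θ : ℂ) ^ 2 else 0 := by
    intro y
    show (θ : K → ℂ) y * conj ((θ : K → ℂ) y) = _
    split_ifs with hy
    · have h3 := hμ 1 ⟨y, hy⟩
      rw [one_mul, dg_eq] at h3
      have h4 : (θ : K → ℂ) y = (dg θ : ℂ) * (μ : Z → ℂ) ⟨y, hy⟩ := h3
      have h5 := theta_norm hZ μ ⟨y, hy⟩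
      have h6 : (μ : Z → ℂ) ⟨y, hy⟩ * conj ((μ : Z → ℂ) ⟨y, hy⟩) = 1 := by
        rw [Complex.mul_conj, Complex.normSq_eq_norm_sq, h5]; norm_num
      rw [h4, map_mul, map_natCast]
      linear_combination (dg θ : ℂ) ^ 2 * h6
    · rw [hvan y y.2 hy, zero_mul]
  have h3 : ∑ y : E, (if (y : K) ∈ Z then (dg θ : ℂ) ^ 2 else 0) = 3 * (dg θ : ℂ) ^ 2 := by
    rw [← Finset.sum_filter, Finset.sum_const, nsmul_eq_mul]
    congr 1
    have h4 : (Finset.univ.filter (fun y : E => (y : K) ∈ Z)).card = Nat.card (Z.subgroupOf E) := by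
      rw [Nat.card_eq_fintype_card, Fintype.card_subtype]
      congr 1
    rw [h4, Nat.card_congr (subgroupOfEquivOfLe hZE).toEquiv, hZc]
    norm_num
  rw [Finset.sum_congr rfl fun y _ => h2 y, h3, hEc] at hk
  have h4 : ((dg θ ^ 2 : ℕ) : ℂ) = ((9 * k : ℕ) : ℂ) := by
    push_cast at hk ⊢
    linear_combination 9 * hk
  have h5 : dg θ ^ 2 = 9 * k := by exact_mod_cast h4
  exact Nat.prime_three.dvd_of_dvd_pow (n := 2) (by rw [h5]; exact ⟨3 * k, by ring⟩)

/-- **residues modulo 13 of the faithful characters of a triple cover** -/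
theorem rel13Z {G : Type u} [Group G] [Finite G] [Fact (Nat.Prime 13)] {P : Sylow 13 G} {K E Z : Subgroup G}
    (hK : IsComp 13 (P : Subgroup G) K) (hP : Nat.card P = 13)
    (he : (centralizer ((P : Subgroup G) : Set G)).relIndex (normalizer ((P : Subgroup G) : Set G)) = 12)
    (hKc : Nat.card K = 54) (hZ : Z ≤ center G) (hZc : Nat.card Z = 3) (hEK : E ≤ K) (hEc : Nat.card E = 27)
    (hZE : Z ≤ E) (hEZ : ∀ a ∈ E, ∀ b ∈ E, a * b * a⁻¹ * b⁻¹ ∈ Z) (hna : ∃ a ∈ E, ∃ b ∈ E, a * b ≠ b * a) {z : G}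
    (hzK : z ∈ K) (hz : z * z = 1) (hz1 : z ≠ 1) (χ : IrrCharacter G) (hχ : ∃ ζ ∈ Z, (χ : G → ℂ) ζ ≠ (χ : G → ℂ) 1)
    {n : ℤ} (hn : (χ : G → ℂ) 1 = n) : n % 13 = 0 ∨ n % 13 = 3 ∨ n % 13 = 10 := by
  classical
  have : Finite (IrrCharacter K) := finite_irr
  have := Fintype.ofFinite (IrrCharacter K)
  have h3P : Fact (Nat.Prime 3) := ⟨Nat.prime_three⟩
  have hZK : Z ≤ K := hZE.trans hEK
  obtain ⟨M, hM, hcase⟩ := Gen.exists_mult hK hP he (t := 1) (by norm_num) χ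
  have hn1 : n = ∑ θ : IrrCharacter K, (M θ : ℤ) * dg θ := by
    have h1 := hM 1
    rw [OneMemClass.coe_one, hn, Finset.sum_congr rfl fun θ _ => by rw [dg_eq θ]] at h1
    exact_mod_cast h1
  rcases hcase with h0 | ⟨θ, e', hem, c, hc, hin, hout⟩
  · left
    refine Int.emod_eq_zero_of_dvd ?_
    rw [hn1]
    exact Finset.dvd_sum fun θ _ => Dvd.dvd.mul_right (by exact_mod_cast h0 θ) _
  set m := (orb P K (θ : K → ℂ)).card with hm
  have hm0 : 0 < m := Nat.pos_of_ne_zero (by rintro h; rw [h] at hem; simp at hem)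
  have he0 : 0 < e' := Nat.pos_of_ne_zero (by rintro h; rw [h] at hem; simp at hem)
  have he12 : e' ≤ 12 := by rw [← hem]; exact Nat.le_mul_of_pos_right _ hm0
  have hd0 : 0 < dg θ := Nat.pos_of_ne_zero (M23Order.Base.dg_ne_zero θ)
  have hθself : θ ∈ orb P K (θ : K → ℂ) := mem_orb.2 ⟨1, one_mem _, tw_one _⟩
  have hMθ : M θ ≠ 0 := by
    intro h
    have h1 := hin θ hθself
    rw [h, Nat.cast_zero, zero_sub, dvd_neg] at h1
    rcases hc with rfl | rfl | rfl | rfl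
    · omega
    · omega
    · have := Int.le_of_dvd (by exact_mod_cast he0) h1; omega
    · rw [dvd_neg] at h1
      have := Int.le_of_dvd (by exact_mod_cast he0) h1; omega
  -- the residue
  have hres : (13 : ℤ) ∣ n - c * (m * dg θ) := by
    rw [hn1, ← Finset.sum_filter_add_sum_filter_not Finset.univ (fun θ' => θ' ∈ orb P K (θ : K → ℂ)), add_sub_right_comm]
    refine dvd_add ?_ (Finset.dvd_sum fun θ' h => Dvd.dvd.mul_right
      (by exact_mod_cast hout θ' (Finset.mem_filter.1 h).2) _)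
    rw [Finset.filter_mem_eq_inter, Finset.univ_inter]
    have h1 : c * (m * dg θ) = ∑ θ' ∈ orb P K (θ : K → ℂ), c * dg θ' := by
      rw [Finset.sum_congr rfl (g := fun _ => c * (dg θ : ℤ)) (fun θ' h => by rw [dg_orb hK h]), Finset.sum_const,
        nsmul_eq_mul, ← hm]
      ring
    rw [h1, ← Finset.sum_sub_distrib]
    refine Finset.dvd_sum fun θ' h => ?_
    rw [← sub_mul]
    exact Dvd.dvd.mul_right (hin θ' h) _
  -- the central character
  obtain ⟨μ, hμ⟩ := exists_lies (center_sub (K := K) hZ) θ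
  obtain ⟨ν, hν⟩ := exists_lies hZ χ
  have hcen := fun ζ hζ => cen_eq hZK hν hZ hM hMθ hμ ζ hζ
  have hχ1 : (χ : G → ℂ) 1 ≠ 0 := isIrr_apply_one_ne_zero χ.2
  have hνm : ∀ a b : Z, (ν : Z → ℂ) (a * b) = (ν : Z → ℂ) a * (ν : Z → ℂ) b := by
    intro a b
    have e1 := hν 1 (a * b)
    have e2 := hν a b
    have e3 := hν 1 a
    rw [one_mul] at e1 e3
    rw [show ((a * b : Z) : G) = a * b from rfl, e2, e3, mul_assoc] at e1
    exact (mul_left_cancel₀ hχ1 e1).symm
  have hν1 : (ν : Z → ℂ) 1 = 1 := by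
    have e1 := hν 1 1
    rw [OneMemClass.coe_one, mul_one] at e1
    exact (mul_eq_left₀ hχ1).1 e1.symm
  have hνne : ∀ ζ : Z, ζ ≠ 1 → (ν : Z → ℂ) ζ ≠ 1 := by
    intro ζ hζ h
    obtain ⟨ζ₀, hζ₀, h0⟩ := hχ
    have hgen : (⟨ζ₀, hζ₀⟩ : Z) ∈ zpowers ζ := by
      have : zpowers ζ = ⊤ := zpowers_eq_top_of_prime_card hZc hζ
      rw [this]; trivial
    obtain ⟨k, hk⟩ := Submonoid.mem_powers_iff _ _ |>.1 (mem_powers_iff_mem_zpowers.2 hgen)
    have hpow : ∀ j : ℕ, (ν : Z → ℂ) (ζ ^ j) = 1 := by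
      intro j
      induction j with
      | zero => rw [pow_zero, hν1]
      | succ j ih => rw [pow_succ, hνm, ih, h, one_mul]
    have h2 := hν 1 ⟨ζ₀, hζ₀⟩
    rw [one_mul, ← hk, hpow, mul_one] at h2
    exact h0 (by
      have h3 : (ζ₀ : G) = ((ζ ^ k : Z) : G) := by rw [hk]
      rw [h3]; exact h2)
  have hμne : ∀ w : Z.subgroupOf K, w ≠ 1 → (μ : Z.subgroupOf K → ℂ) w ≠ 1 := by
    intro w hw
    have h1 := hcen ((w : K) : G) (mem_subgroupOf.1 w.2)
    have h2 : (⟨⟨((w : K) : G), hZK (mem_subgroupOf.1 w.2)⟩, mem_subgroupOf.2 (mem_subgroupOf.1 w.2)⟩ :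
        Z.subgroupOf K) = w := rfl
    rw [h2] at h1
    rw [h1]
    exact hνne _ fun h => hw (Subtype.ext (Subtype.ext (show ((w : K) : G) = 1 from congrArg Subtype.val h)))
  -- the degree
  have hd3 : 3 ∣ dg θ := by
    refine three_dvd (E := E.subgroupOf K) (center_sub hZ) (by rw [Nat.card_congr (subgroupOfEquivOfLe hZK).toEquiv, hZc])
      (by rw [Nat.card_congr (subgroupOfEquivOfLe hEK).toEquiv, hEc]) (fun y hy => mem_subgroupOf.2 (hZE (mem_subgroupOf.1 hy)))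
      ?_ ?_ hμ hμne
    · intro a ha b hb
      exact mem_subgroupOf.2 (hEZ a (mem_subgroupOf.1 ha) b (mem_subgroupOf.1 hb))
    · obtain ⟨a, ha, b, hb, hab⟩ := hna
      exact ⟨⟨a, hEK ha⟩, mem_subgroupOf.2 ha, ⟨b, hEK hb⟩, mem_subgroupOf.2 hb, fun h => hab (congrArg Subtype.val h)⟩
  have hdc : (dg θ : ℂ) ≠ 0 := by exact_mod_cast hd0.ne'
  have hmu : ∀ z : Z.subgroupOf K, ‖(μ : Z.subgroupOf K → ℂ) z‖ = 1 := fun z => theta_norm (center_sub hZ) μ z
  have hBes : ∀ S : Finset (IrrCharacter K), (∀ θ' ∈ S, Lies (Z.subgroupOf K) (μ : Z.subgroupOf K → ℂ) (θ' : K → ℂ)) →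
      ∑ θ' ∈ S, dg θ' ^ 2 ≤ 18 := by
    intro S hS
    have h3 := card_mul_sum_le (Z.subgroupOf K) S (fun y => (θ : K → ℂ) y / dg θ) (fun y hy => by
        have e1 := hμ 1 ⟨y, hy⟩
        rw [one_mul, dg_eq] at e1
        show ‖(θ : K → ℂ) y / dg θ‖ = 1
        rw [show (θ : K → ℂ) y = dg θ * (μ : Z.subgroupOf K → ℂ) ⟨y, hy⟩ from e1, mul_comm, mul_div_assoc,
          div_self hdc, mul_one]
        exact hmu _) (fun θ' hθ' y hy => by
        have e1 := hμ 1 ⟨y, hy⟩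
        have e2 := hS θ' hθ' 1 ⟨y, hy⟩
        rw [one_mul, dg_eq] at e1 e2
        rw [show (θ : K → ℂ) y = dg θ * (μ : Z.subgroupOf K → ℂ) ⟨y, hy⟩ from e1,
          show (θ' : K → ℂ) y = dg θ' * (μ : Z.subgroupOf K → ℂ) ⟨y, hy⟩ from e2]
        field_simp)
    rw [Nat.card_congr (subgroupOfEquivOfLe hZK).toEquiv, hZc, hKc] at h3
    omega
  have hsq : m * dg θ ^ 2 ≤ 18 := by
    have h3 := hBes (orb P K (θ : K → ℂ)) (fun θ' h => lies_orb hK hZ hμ h)
    rwa [Finset.sum_congr rfl (g := fun _ => dg θ ^ 2) (fun θ' h => by rw [dg_orb hK h]), Finset.sum_const,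
      smul_eq_mul, ← hm] at h3
  have hdg : dg θ = 3 := by
    have h3 : dg θ ^ 2 ≤ 18 := le_trans (Nat.le_mul_of_pos_left _ hm0) hsq
    have h4 : dg θ ≤ 4 := by
      by_contra hne
      have : 5 ≤ dg θ := by omega
      nlinarith
    obtain ⟨j, hj⟩ := hd3
    omega
  -- `m = 1`
  have hm1 : m = 1 := by
    by_contra hne
    have hm2 : m = 2 := by rw [hdg] at hsq; omega
    have hS : ∀ θ' : IrrCharacter K, θ' ∈ orb P K (θ : K → ℂ) ↔
        Lies (Z.subgroupOf K) (μ : Z.subgroupOf K → ℂ) (θ' : K → ℂ) := by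
      intro θ'
      refine ⟨fun h => lies_orb hK hZ hμ h, fun h => ?_⟩
      by_contra hnot
      have h1 := hBes (insert θ' (orb P K (θ : K → ℂ))) (fun θ'' h'' => by
        rcases Finset.mem_insert.1 h'' with rfl | h''
        · exact h
        · exact lies_orb hK hZ hμ h'')
      rw [Finset.sum_insert hnot, Finset.sum_congr rfl (g := fun _ => dg θ ^ 2) (fun θ' h => by rw [dg_orb hK h]),
        Finset.sum_const, smul_eq_mul, ← hm, hm2, hdg] at h1
      have h2 : 0 < dg θ' := Nat.pos_of_ne_zero (M23Order.Base.dg_ne_zero θ')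
      have h3 : 0 < dg θ' ^ 2 := pow_pos h2 2
      omega
    have hzc : ∀ ζ ∈ Z.subgroupOf K, ¬ IsConj ζ (⟨z, hzK⟩ : K) := by
      intro ζ hζ h
      obtain ⟨g, hg⟩ := isConj_iff.1 h
      have h1 := mem_center_iff.1 (center_sub hZ hζ) g
      rw [h1, mul_inv_cancel_right] at hg
      have h2 : z ∈ Z := by rw [hg] at hζ; exact mem_subgroupOf.1 hζ
      have h3 := Subgroup.orderOf_dvd_natCard Z h2
      rw [hZc] at h3
      have h4 : orderOf z = 2 := orderOf_eq_prime (by rw [pow_two, hz]) hz1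
      rw [h4] at h3
      omega
    have horth := sum_over (center_sub hZ) μ hzc _ hS
    obtain ⟨w, hw, hpar⟩ := exists_par θ (t := (⟨z, hzK⟩ : K)) (Subtype.ext hz)
    have hconst : ∀ θ' ∈ orb P K (θ : K → ℂ), (θ' : K → ℂ) ⟨z, hzK⟩ = w := by
      intro θ' h'
      obtain ⟨g, hg, h1⟩ := mem_orb.1 h'
      rw [← h1, tw_apply hK _ hg, ← hw]
      -- the two involutions are conjugate in `K`
      have hg1 : g * z * g⁻¹ ≠ 1 := by
        intro h
        apply hz1
        calc z = g⁻¹ * (g * z * g⁻¹) * g := by group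
          _ = 1 := by rw [h]; group
      have hg2 : g * z * g⁻¹ * (g * z * g⁻¹) = 1 := by
        calc g * z * g⁻¹ * (g * z * g⁻¹) = g * (z * z) * g⁻¹ := by group
          _ = 1 := by rw [hz, mul_one, mul_inv_cancel]
      have o1 : orderOf (⟨z, hzK⟩ : K) = 2 := orderOf_eq_prime (by rw [pow_two]; exact Subtype.ext hz)
        fun h => hz1 (congrArg Subtype.val h)
      have o2 : orderOf (⟨g * z * g⁻¹, conj_mem hK hg hzK⟩ : K) = 2 :=
        orderOf_eq_prime (by rw [pow_two]; exact Subtype.ext hg2) fun h => hg1 (congrArg Subtype.val h)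
      obtain ⟨y, hy⟩ := H845.T13Concl.exists_conj_of_card_prime Nat.prime_two (by rw [hKc]; norm_num)
        (zpowers (⟨z, hzK⟩ : K)) (zpowers (⟨g * z * g⁻¹, conj_mem hK hg hzK⟩ : K))
        (by rw [Nat.card_zpowers, o1]) (by rw [Nat.card_zpowers, o2])
      have h2 : y * ⟨z, hzK⟩ * y⁻¹ ∈ zpowers (⟨g * z * g⁻¹, conj_mem hK hg hzK⟩ : K) := by
        rw [← hy]
        exact ⟨⟨z, hzK⟩, mem_zpowers _, rfl⟩
      have h3 : y * (⟨z, hzK⟩ : K) * y⁻¹ = ⟨g * z * g⁻¹, conj_mem hK hg hzK⟩ := by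
        obtain ⟨k, hk⟩ := Submonoid.mem_powers_iff _ _ |>.1 (mem_powers_iff_mem_zpowers.2 h2)
        rw [← pow_mod_orderOf, o2] at hk
        have hk2 : k % 2 < 2 := Nat.mod_lt _ (by norm_num)
        interval_cases hkk : k % 2
        · exfalso
          rw [pow_zero] at hk
          apply hz1
          have h4 : y⁻¹ * (y * (⟨z, hzK⟩ : K) * y⁻¹) * y = y⁻¹ * 1 * y := by rw [← hk]
          have h5 : (⟨z, hzK⟩ : K) = 1 := by
            calc (⟨z, hzK⟩ : K) = y⁻¹ * (y * (⟨z, hzK⟩ : K) * y⁻¹) * y := by group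
              _ = y⁻¹ * 1 * y := h4
              _ = 1 := by group
          exact congrArg Subtype.val h5
        · rw [pow_one] at hk
          exact hk.symm
      rw [← h3]
      exact isClassFunction_def.1 (isIrr_isClassFunction θ.2) _ _
    rw [Finset.sum_congr rfl (g := fun _ => ((3 : ℂ) * w)) (fun θ' h => by
      rw [dg_orb hK h, hdg, hconst θ' h, map_intCast]; norm_num), Finset.sum_const, nsmul_eq_mul, ← hm, hm2]
      at horth
    have hw0 : w = 0 := by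
      have h1 : ((2 : ℕ) : ℂ) * (3 * (w : ℂ)) = ((6 * w : ℤ) : ℂ) := by push_cast; ring
      rw [h1] at horth
      have h2 : 6 * w = 0 := by exact_mod_cast horth
      omega
    rw [hw0, hdg] at hpar
    norm_num at hpar
  rw [hm1, hdg] at hres
  have he' : e' = 12 := by rw [hm1] at hem; omega
  subst he'
  norm_num at hres
  rcases hc with rfl | rfl | rfl | rfl <;> norm_num at hres <;> omega

end Cfsg.Agent.H133.QS
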