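import Cfsg.Agent.H133.QS.R13L
import Cfsg.Agent.H253.TwoComm.Deg
import Cfsg.Agent.R08.FiTwentyFour
import Cfsg.Agent.S2054
import Cfsg.Agent.LThreeFi23.Base

/-!
# `3.Fi24'`: the restriction of a faithful character of `L3` to `Fi23` (helper133)

* `exists_lift_hom` : a homomorphism from a perfect group with trivial multiplier lifts to a central extension;
* `conj_com`, `conj_ncom` : the products of two transpositions of `Fi23` in `Fi24'`;
* `exists_res` : `χ ∘ j` is a character of `Fi23`, equal values at `z`, `g z`, the value 0 at `j z`;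
* `ne_45747` : the degree 45747 is excluded, given the statement on `Fi23` (helper856).
-/

set_option autoImplicit false

namespace Cfsg.Agent.H133.QS.ResFi

open Cfsg Subgroup
open Cfsg.Agent.H51.Mult (PCE)
open Cfsg.Agent.Characters.Core

universe u v w

/-- a homomorphism from a perfect group with trivial multiplier lifts to a central extension -/
theorem exists_lift_hom {X : Type u} [Group X] (hX : commutator X = ⊤) (hM : HasCyclicSchurMultiplier X 1)
    {L : Type v} [Group L] {K : Type w} [Group K] {π : L →* K} (hs : Function.Surjective π) (hc : π.ker ≤ center L)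
    (ι : X →* K) : ∃ j : X →* L, ∀ x, π (j x) = ι x := by
  let F : Subgroup (X × L) := (ι.comp (MonoidHom.fst X L)).eqLocus (π.comp (MonoidHom.snd X L))
  let τ : F →* X := (MonoidHom.fst X L).comp F.subtype
  have hτs : Function.Surjective τ := by
    intro x
    obtain ⟨l, hl⟩ := hs (ι x)
    exact ⟨⟨(x, l), hl.symm⟩, rfl⟩
  have hτc : τ.ker ≤ center F := by
    rintro ⟨⟨x, l⟩, hxl⟩ h
    have hx : x = 1 := h
    subst hx
    have hl : l ∈ π.ker := by
      have h1 : ι 1 = π l := hxl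
      rw [map_one] at h1
      exact h1.symm
    rw [mem_center_iff]
    rintro ⟨⟨y, m⟩, hym⟩
    apply Subtype.ext
    show (y * 1, m * l) = (1 * y, l * m)
    rw [mul_one, one_mul, mem_center_iff.1 (hc hl) m]
  have hp := H253.TC.pce_commutator hX hτs hτc
  have h1 := (H68.Bounds.ker_of_hasCyclic hM hp).2
  have h2 : Function.Injective (τ.comp (commutator F).subtype) := by
    rw [← MonoidHom.ker_eq_bot_iff]
    exact Subgroup.eq_bot_of_card_eq _ (Nat.dvd_one.1 h1)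
  let e : commutator F ≃* X := MulEquiv.ofBijective _ ⟨h2, hp.surj⟩
  refine ⟨(MonoidHom.snd X L).comp (F.subtype.comp ((commutator F).subtype.comp e.symm.toMonoidHom)), fun x => ?_⟩
  have h3 : ι (((e.symm x : commutator F) : F) : X × L).1 = π (((e.symm x : commutator F) : F) : X × L).2 :=
    ((e.symm x : commutator F) : F).2
  have h4 : (((e.symm x : commutator F) : F) : X × L).1 = x := e.apply_symm_apply x
  show π (((e.symm x : commutator F) : F) : X × L).2 = ι x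
  rw [← h3, h4]

section Fi

open Cfsg.Agent.R08 Cfsg.Agent.R08.FiTwentyFour
open Cfsg.Agent.Fischer.Fi24Class (gen gen_sq)
open Cfsg.Agent.Fischer.Fi23Z (z0)

/-- the embedding of `Fi23` -/
noncomputable def inc : Spor.Fi23 →* Spor.Fi24' := facts.phi.codRestrict _ fun x => by
  rw [mem_commutator_iff]
  exact facts.sgn_phi x

theorem mem_L {d : Spor.Fi23} (hd : d ∈ FiTwentyThree.D) : gen .l * facts.phi d ∈ L :=
  (facts.commuting_iff.2 ⟨d, hd, rfl⟩).1

theorem mul_L (d e : Spor.Fi23) : gen .l * facts.phi d * (gen .l * facts.phi e) = facts.phi (d * e) := by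
  have h1 := facts.phi_comm d
  rw [map_mul]
  calc gen .l * facts.phi d * (gen .l * facts.phi e) = gen .l * (facts.phi d * gen .l) * facts.phi e := by group
    _ = gen .l * (gen .l * facts.phi d) * facts.phi e := by rw [h1]
    _ = (gen .l * gen .l) * (facts.phi d * facts.phi e) := by group
    _ = facts.phi d * facts.phi e := by rw [gen_sq, one_mul]

theorem conj_com {d e : Spor.Fi23} (hd : d ∈ FiTwentyThree.D) (he : e ∈ FiTwentyThree.D) (hne : d ≠ e)
    (hde : d * e = e * d) : ∃ g : Spor.Fi24', g * inc z0 * g⁻¹ = inc (d * e) := by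
  have hz := facts.commuting_iff.2 ⟨z0, FiTwentyThree.z0_mem_D, rfl⟩
  have hc : gen .l * facts.phi d * (gen .l * facts.phi e) = gen .l * facts.phi e * (gen .l * facts.phi d) := by
    rw [mul_L, mul_L, hde]
  obtain ⟨g, hg, h1, h2⟩ := facts.trans2 (gen_mem_L .l) hz.1 hz.2.1.symm hz.2.2.symm (mem_L hd) (mem_L he)
    (fun h => hne (facts.phi_injective (mul_left_cancel h))) hc
  refine ⟨⟨g, hg⟩, Subtype.ext ?_⟩
  show g * facts.phi z0 * g⁻¹ = facts.phi (d * e)
  rw [← mul_L, ← h1, ← h2]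
  have h3 : facts.phi z0 = gen .l * (gen .l * facts.phi z0) := by rw [← mul_assoc, gen_sq, one_mul]
  nth_rewrite 1 [h3]
  group

/-- the pairs of transpositions that do not commute are conjugate -/
theorem trans_nc {a b a' b' : Spor.Fi24} (ha : a ∈ L) (hb : b ∈ L) (hab : a * b ≠ b * a)
    (ha' : a' ∈ L) (hb' : b' ∈ L) (hab' : a' * b' ≠ b' * a') :
    ∃ g, g * a * g⁻¹ = a' ∧ g * b * g⁻¹ = b' := by
  obtain ⟨R, h1, h2, h3⟩ := facts.exists_rank3
  have key : ∀ {a b : Spor.Fi24}, a ∈ L → b ∈ L → a * b ≠ b * a →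
      ∃ g, g * R.t R.x0 * g⁻¹ = a ∧ g * R.t R.b * g⁻¹ = b := by
    intro a b ha hb hab
    rw [← h3] at ha hb
    obtain ⟨x, rfl⟩ := ha
    obtain ⟨y, rfl⟩ := hb
    obtain ⟨h, rfl⟩ := R.trans x
    have h4 : ¬ R.Com R.x0 (h⁻¹ • y) := by
      intro h5
      apply hab
      have h6 := (R.com_smul h R.x0 (h⁻¹ • y)).2 h5
      rw [smul_inv_smul] at h6
      exact h6
    obtain ⟨m, hm, hm'⟩ := R.not_com_x0_iff.1 h4
    refine ⟨h * m, ?_, ?_⟩
    · rw [← R.map_smul, mul_smul, hm]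
    · rw [← R.map_smul, mul_smul, hm', smul_inv_smul]
  obtain ⟨g, hg, hg'⟩ := key ha hb hab
  obtain ⟨k, hk, hk'⟩ := key ha' hb' hab'
  refine ⟨k * g⁻¹, ?_, ?_⟩
  · rw [← hg, ← hk]; group
  · rw [← hg', ← hk']; group

theorem conj_ncom {d e : Spor.Fi23} (hd : d ∈ FiTwentyThree.D) (he : e ∈ FiTwentyThree.D)
    (hde : d * e ≠ e * d) : ∃ g : Spor.Fi24', g * R13.a13 * g⁻¹ = inc (d * e) ∨ g * R13.a13 * g⁻¹ = (inc (d * e))⁻¹ := by
  have hc : gen .l * facts.phi d * (gen .l * facts.phi e) ≠ gen .l * facts.phi e * (gen .l * facts.phi d) := by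
    rw [mul_L, mul_L]
    exact fun h => hde (facts.phi_injective h)
  have hlk : gen .l * gen .k ≠ gen .k * gen .l := Fischer.Fi24Class.k_ncomm_l facts.card_ne
  obtain ⟨g, h1, h2⟩ := trans_nc (gen_mem_L .l) (gen_mem_L .k) hlk (mem_L hd) (mem_L he) hc
  have h3 : g * (gen .l * gen .k) * g⁻¹ = facts.phi (d * e) := by
    rw [← mul_L, ← h1, ← h2]; group
  rcases Int.units_eq_one_or (Fischer.Fi24Final.sgn g) with h7 | h7
  · exact ⟨⟨g, mem_commutator_iff.2 h7⟩, Or.inl (Subtype.ext h3)⟩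
  · have hs : Fischer.Fi24Final.sgn (gen .l) = -1 := Fischer.Fi24Final.sgn_gen _
    refine ⟨⟨g * gen .l, mem_commutator_iff.2 (by rw [map_mul, h7, hs]; decide)⟩, Or.inr (Subtype.ext ?_)⟩
    show g * gen .l * (gen .l * gen .k) * (g * gen .l)⁻¹ = (facts.phi (d * e))⁻¹
    rw [← h3]
    have hl := gen_sq .l
    have hk := gen_sq .k
    have hl' : (gen .l)⁻¹ = gen .l := Fischer.Fi24Class.gen_inv _
    have hk' : (gen .k)⁻¹ = gen .k := Fischer.Fi24Class.gen_inv _
    calc g * gen .l * (gen .l * gen .k) * (g * gen .l)⁻¹ = g * (gen .l * gen .l) * gen .k * (gen .l)⁻¹ * g⁻¹ := by group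
      _ = g * (gen .k * gen .l) * g⁻¹ := by rw [hl, hl']; group
      _ = g * ((gen .k)⁻¹ * (gen .l)⁻¹) * g⁻¹ := by rw [hl', hk']
      _ = (g * (gen .l * gen .k) * g⁻¹)⁻¹ := by group

end Fi

/-! ### the restriction -/

section Res

open Cfsg.Agent.R08
open Cfsg.Agent.LThreeFi23 (el)
open Cfsg.Agent.Fischer.Fi23Z (z0)
open Cfsg.Agent.H265.TF

theorem el_com : el .g ≠ z0 ∧ el .g * z0 = z0 * el .g := by
  have := FiTwentyThree.finite_fi23
  have hK : ∀ x : Spor.Fi23.Gen, x ≠ .j → Fischer.Fi23Hom.gen x * z0 = z0 * Fischer.Fi23Hom.gen x := fun x hx =>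
    Fischer.Fi23Class.comm_z0 FiTwentyThree.card_le _ (Fischer.Fi23Class.gen_mem_K x hx)
  refine ⟨fun h => ?_, hK .g (by decide)⟩
  -- `f` and `g` would be equal, and `f` commutes with `j`
  have h1 : Fischer.Fi23Hom.gen .f = z0 := by
    have h2 : (Fischer.Fi23Hom.gen .f * z0) ^ 3 = 1 := by
      rw [← h]; exact Fischer.Fi23Final.gen_rel .f .g
    have h3 : (Fischer.Fi23Hom.gen .f * z0) ^ 2 = 1 := by
      have h4 : Fischer.Fi23Hom.gen .f * Fischer.Fi23Hom.gen .f = 1 := FiTwentyThree.sq_D (FiTwentyThree.gen_mem_D .f)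
      have h5 : z0 * z0 = 1 := FiTwentyThree.sq_D FiTwentyThree.z0_mem_D
      calc (Fischer.Fi23Hom.gen .f * z0) ^ 2 = Fischer.Fi23Hom.gen .f * (z0 * Fischer.Fi23Hom.gen .f) * z0 := by
            rw [pow_two]; group
        _ = (Fischer.Fi23Hom.gen .f * Fischer.Fi23Hom.gen .f) * (z0 * z0) := by rw [← hK .f (by decide)]; group
        _ = 1 := by rw [h4, h5, one_mul]
    rw [pow_succ, h3, one_mul] at h2
    exact (mul_eq_one_iff_eq_inv.1 h2).trans (inv_eq_of_mul_eq_one_left (FiTwentyThree.sq_D FiTwentyThree.z0_mem_D))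
  apply Fischer.Fi23Class.z0_ncomm
  rw [← h1]
  exact Fischer.Fi23Class.gen_comm .f .j (by decide)

theorem el_ncom : el .j * z0 ≠ z0 * el .j := fun h => Fischer.Fi23Class.z0_ncomm h.symm

/-- **The restriction of a character to `Fi23`.** -/
theorem exists_res {L : Type u} [Group L] [Finite L] {π : L →* Spor.Fi24'} (hs : Function.Surjective π)
    (hc : π.ker ≤ center L) (hk : Nat.card π.ker = 3) {c : Spor.Fi24'} (hT : Tri π c R13.a13) (χ : IrrCharacter L)
    (hχ : ∃ ζ ∈ π.ker, (χ : L → ℂ) ζ ≠ (χ : L → ℂ) 1) :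
    ∃ φ : Spor.Fi23 → ℂ, IsCharacter Spor.Fi23 φ ∧ φ 1 = (χ : L → ℂ) 1 ∧ φ (el .z) = φ (el .g * el .z) ∧
      φ (el .j * el .z) = 0 := by
  obtain ⟨j, hj⟩ := exists_lift_hom S2054.perfect_fi23 S2054.result hs hc inc
  have hcf := isIrr_isClassFunction χ.2
  have hfin : Finite Spor.Fi24' := by
    have := FiTwentyFour.finite_Fi24
    exact inferInstanceAs (Finite ↥(commutator Spor.Fi24))
  refine ⟨fun x => (χ : L → ℂ) (j x), ?_, ?_, ?_, ?_⟩
  · obtain ⟨n, ρ, h⟩ := isIrr_isCharacter χ.2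
    refine ⟨n, ρ.comp j, ?_⟩
    funext x
    rw [← h]
    rfl
  · show (χ : L → ℂ) (j 1) = _
    rw [map_one]
  · obtain ⟨g, hg⟩ := conj_com (FiTwentyThree.gen_mem_D .g) FiTwentyThree.z0_mem_D el_com.1 el_com.2
    obtain ⟨g, rfl⟩ := hs g
    have hz : z0 * z0 = 1 := FiTwentyThree.sq_D FiTwentyThree.z0_mem_D
    have hgg : el .g * el .g = 1 := FiTwentyThree.sq_D (FiTwentyThree.gen_mem_D .g)
    have e1 : g * j z0 * g⁻¹ = j (el .g * z0) := by
      refine eq_of_sq hc (by rw [hk]; decide) ?_ ?_ ?_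
      · calc g * j z0 * g⁻¹ * (g * j z0 * g⁻¹) = g * (j z0 * j z0) * g⁻¹ := by group
          _ = 1 := by rw [← map_mul, hz, map_one]; group
      · rw [← map_mul]
        have h1 : el .g * z0 * (el .g * z0) = 1 := by
          calc el .g * z0 * (el .g * z0) = el .g * (z0 * el .g) * z0 := by group
            _ = (el .g * el .g) * (z0 * z0) := by rw [← el_com.2]; group
            _ = 1 := by rw [hgg, hz, one_mul]
        rw [h1, map_one]
      · rw [map_mul, map_mul, map_inv, hj, hj]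
        exact hg
    show (χ : L → ℂ) (j z0) = (χ : L → ℂ) (j (el .g * z0))
    rw [← e1]
    exact (hcf (j z0) g).symm
  · show (χ : L → ℂ) (j (el .j * z0)) = 0
    obtain ⟨ζ, hζ, hζ1⟩ := hχ
    have hT' : ∃ c, Tri π c (inc (el .j * z0)) := by
      obtain ⟨g, hg | hg⟩ := conj_ncom (FiTwentyThree.gen_mem_D .j) FiTwentyThree.z0_mem_D el_ncom
      · exact ⟨g * c * g⁻¹, hg ▸ hT.conj hs g⟩
      · refine ⟨g * c * g⁻¹, ?_⟩
        have h1 := (hT.conj hs g).inv_right
        rwa [hg, inv_inv] at h1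
    obtain ⟨c', hT'⟩ := hT'
    have h1 := hT'.fuse hs hc hk (hj _) (ζ := ζ) hζ
    obtain ⟨m, hm⟩ := isConj_iff.1 h1
    obtain ⟨μ, hμ⟩ := H113.QS.exists_lies hc χ
    have h2 := hμ 1 ⟨ζ, hζ⟩
    have h3 := hμ (j (el .j * z0)) ⟨ζ, hζ⟩
    have h4 : (χ : L → ℂ) (j (el .j * z0) * ζ) = (χ : L → ℂ) (j (el .j * z0)) := by
      rw [← hm]; exact hcf _ _
    rw [one_mul] at h2
    rw [h4] at h3
    by_contra h0
    apply hζ1
    have h5 : (μ : π.ker → ℂ) ⟨ζ, hζ⟩ = 1 := by
      have h6 := mul_left_cancel₀ h0 ((mul_one _).trans h3)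
      exact h6.symm
    rw [h5, mul_one] at h2
    exact h2

open Cfsg.Agent.H52.ThreeFi24 Cfsg.Agent.H52.ThreeFi24Chk Cfsg.Agent.R08.TThree Cfsg.Agent.SmallSimple in
theorem exists_res_L3 (χ : IrrCharacter L3) (hχ : ∃ ζ ∈ π3.ker, (χ : L3 → ℂ) ζ ≠ (χ : L3 → ℂ) 1) :
    ∃ φ : Spor.Fi23 → ℂ, IsCharacter Spor.Fi23 φ ∧ φ 1 = (χ : L3 → ℂ) 1 ∧ φ (el .z) = φ (el .g * el .z) ∧
      φ (el .j * el .z) = 0 := by
  have : Finite P3 := card_P3.1
  have : Finite L3 := inferInstanceAs (Finite ↥(_root_.commutator P3))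
  exact exists_res pce.surj pce.cen card_ker_L3 R13L.tri χ hχ

open Cfsg.Agent.H52.ThreeFi24 Cfsg.Agent.H52.ThreeFi24Chk Cfsg.Agent.R08.TThree Cfsg.Agent.SmallSimple in
/-- **45747**, given the statement on `Fi23` -/
theorem ne_45747 (hno : ∀ φ : Spor.Fi23 → ℂ, IsCharacter Spor.Fi23 φ → φ (el .z) = φ (el .g * el .z) →
      φ (el .j * el .z) = 0 → φ 1 ≠ 45747) (χ : IrrCharacter L3)
    (hχ : ∃ ζ ∈ π3.ker, (χ : L3 → ℂ) ζ ≠ (χ : L3 → ℂ) 1) : charDegree (χ : L3 → ℂ) ≠ 45747 := by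
  intro h
  have : Finite P3 := card_P3.1
  have : Finite L3 := inferInstanceAs (Finite ↥(_root_.commutator P3))
  obtain ⟨φ, h1, h2, h3, h4⟩ := exists_res_L3 χ hχ
  apply hno φ h1 h3 h4
  rw [h2, Blocks.Knorr.charDegree_eq χ.2, h]
  norm_num

end Res

end Cfsg.Agent.H133.QS.ResFi
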